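import Cfsg.Agent.H11.CyDefs

/-! Project CY (row S3256), chapter IV: line groups that are `2`-by-`p`. -/

set_option autoImplicit false

namespace Cfsg.Agent.H45.Iv

open Subgroup MulAction Cfsg.Agent.H11.Cy
open scoped commutatorElement

section Defs
variable {G : Type} [Group G] {Ω : Type} [MulAction G Ω]

/-- the normal `2`-subgroup of a line group -/
def Rl (A : Ω → Subgroup G) (x y : Ω) : Subgroup G := ⁅Fl A x y, Fl A x y⁆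
/-- the centre of a line group -/
def Zl (A : Ω → Subgroup G) (x y : Ω) : Subgroup G := Fl A x y ⊓ Kl A x y
/-- fixed points -/
def Fx (Ω : Type) [MulAction G Ω] (z : G) : Set Ω := {w | z • w = w}

structure LA (A : Ω → Subgroup G) (x y : Ω) : Prop where
  r2 : IsPGroup 2 (Rl A x y)
  sup : Rl A x y ⊔ A x = Fl A x y
  dec : ∀ g ∈ Fl A x y, ∃ r ∈ Rl A x y, ∃ a ∈ A x, g = r * a
  disj : ∀ c, ∀ a ∈ A c, a ∈ Rl A x y → a = 1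
  zle : Zl A x y ≤ Rl A x y
  tr : ∀ c ∈ Ln A x y, ∃ r ∈ Rl A x y, r • x = c
  out : ∀ g ∈ Fl A x y, g ∉ Rl A x y → ∃ c ∈ Ln A x y, (∀ w, g • w = w ↔ w = c) ∧
    ∃ k : ℕ, g ^ k ∈ A c ∧ g ^ k ≠ 1

structure LB (A : Ω → Subgroup G) (x y : Ω) : Prop where
  stab : ∀ r ∈ Rl A x y, ∀ c ∈ Ln A x y, r • c = c → r ∈ Zl A x y
  com : ∀ r ∈ Rl A x y, ∀ s ∈ Rl A x y, ⁅r, s⁆ ∈ Zl A x y
  sq : ∀ r ∈ Rl A x y, r * r ∈ Zl A x y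

structure LC (A : Ω → Subgroup G) (x y : Ω) : Prop where
  zd : Zl A x y ≤ ⁅Rl A x y, Rl A x y⁆
  zsq : ∀ z ∈ Zl A x y, z * z = 1
  irr : ∀ W : Subgroup G, Zl A x y ≤ W → W ≤ Rl A x y → (∀ a ∈ A x, ∀ w ∈ W, a * w * a⁻¹ ∈ W) →
    W = Zl A x y ∨ W = Rl A x y
  surj : ∀ a ∈ A x, a ≠ 1 → ∀ r ∈ Rl A x y, ∃ s ∈ Rl A x y, r⁻¹ * ⁅a, s⁆ ∈ Zl A x y

structure LD (A : Ω → Subgroup G) (x y : Ω) : Prop where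
  full : ∀ r ∈ Rl A x y, r ∉ Zl A x y → ∀ z ∈ Zl A x y, ∃ s ∈ Rl A x y, ⁅r, s⁆ = z

/-- all line structure -/
def LS (A : Ω → Subgroup G) : Prop := ∀ x y, x ≠ y → LA A x y ∧ LB A x y ∧ LC A x y ∧ LD A x y

/-- elements of `R \ Z` have order four -/
def Ani (A : Ω → Subgroup G) (x y : Ω) : Prop := ∀ r ∈ Rl A x y, r ∉ Zl A x y → r * r ≠ 1
/-- `q ≥ 4` -/
def Big (A : Ω → Subgroup G) (x y : Ω) : Prop := ∀ r ∈ Rl A x y, r ∉ Zl A x y →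
  ∃ s ∈ Rl A x y, r * s = s * r ∧ s ∉ Zl A x y ∧ r * s ∉ Zl A x y
/-- elements of `R \ Z` are fixed point free -/
def Fpf (A : Ω → Subgroup G) : Prop := ∀ x y, x ≠ y → ∀ r ∈ Rl A x y, r ∉ Zl A x y →
  ∀ w : Ω, r • w ≠ w

/-- a subspace -/
def Sub (A : Ω → Subgroup G) (Ψ : Set Ω) : Prop := ∀ x ∈ Ψ, ∀ y ∈ Ψ, x ≠ y → Ln A x y ⊆ Ψ
/-- a good subspace: the centres of its lines fix it pointwise -/
def Good (A : Ω → Subgroup G) (Ψ : Set Ω) : Prop :=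
  ∀ x ∈ Ψ, ∀ y ∈ Ψ, x ≠ y → ∀ z ∈ Zl A x y, ∀ w ∈ Ψ, z • w = w
def Ms (A : Ω → Subgroup G) (Ψ : Set Ω) : Subgroup G := ⨆ w ∈ Ψ, A w
def Ts (A : Ω → Subgroup G) (Ψ : Set Ω) : Subgroup G := ⁅Ms A Ψ, Ms A Ψ⁆
def Cs (A : Ω → Subgroup G) (Ψ : Set Ω) : Subgroup G := centralizer (Ms A Ψ : Set G)
/-- the group generated by the `R` of the lines through `d` -/
def Ds (A : Ω → Subgroup G) (Ψ : Set Ω) (d : Ω) : Subgroup G := ⨆ y ∈ Ψ \ {d}, Rl A d y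

/-- general facts on subspaces -/
structure SK (A : Ω → Subgroup G) : Prop where
  /-- the centraliser of `Ms` -/
  cs : ∀ (Ψ : Set Ω) (k : G), k ∈ Cs A Ψ ↔ ∀ w ∈ Ψ, k ∈ centralizer (A w : Set G)
  csfix : ∀ (Ψ : Set Ω), ∀ k ∈ Cs A Ψ, ∀ w ∈ Ψ, k • w = w
  csof : ∀ (Ψ : Set Ω), ∀ d ∈ Ψ, ∀ k ∈ centralizer (A d : Set G), (∀ w ∈ Ψ, k • w = w) → k ∈ Cs A Ψ
  fle : ∀ (Ψ : Set Ω), ∀ x ∈ Ψ, ∀ y ∈ Ψ, Fl A x y ≤ Ms A Ψ ∧ Rl A x y ≤ Ts A Ψ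
  inv : ∀ (Ψ : Set Ω), Sub A Ψ → ∀ m ∈ Ms A Ψ, ∀ w ∈ Ψ, m • w ∈ Ψ
  nrm : ∀ (Ψ : Set Ω) (g : G), (∀ w, g • w ∈ Ψ ↔ w ∈ Ψ) →
    (∀ m ∈ Ms A Ψ, g * m * g⁻¹ ∈ Ms A Ψ) ∧ (∀ m ∈ Ts A Ψ, g * m * g⁻¹ ∈ Ts A Ψ) ∧
      ∀ m ∈ Cs A Ψ, g * m * g⁻¹ ∈ Cs A Ψ
  fx : ∀ x y, x ≠ y → ∀ z ∈ Zl A x y, Sub A (Fx Ω z) ∧ Ln A x y ⊆ Fx Ω z ∧ z ∈ Cs A (Fx Ω z)
  ln : ∀ x y, x ∈ Ln A x y ∧ y ∈ Ln A x y
  zc : ∀ (Ψ : Set Ω), Good A Ψ → ∀ x ∈ Ψ, ∀ y ∈ Ψ, x ≠ y → Zl A x y ≤ Cs A Ψ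
  cj : ∀ (g : G) x y (h : G), (h ∈ Fl A x y → g * h * g⁻¹ ∈ Fl A (g • x) (g • y)) ∧
    (h ∈ Rl A x y → g * h * g⁻¹ ∈ Rl A (g • x) (g • y)) ∧
    (h ∈ Zl A x y → g * h * g⁻¹ ∈ Zl A (g • x) (g • y))
  sp : ∀ x y, x ≠ y → ∀ z ∈ Ln A x y, ∀ w ∈ Ln A x y, z ≠ w →
    Rl A z w = Rl A x y ∧ Zl A z w = Zl A x y ∧ Ln A z w = Ln A x y

/-- structure of a good subspace, first part -/
structure GA (A : Ω → Subgroup G) (Ψ : Set Ω) (d : Ω) : Prop where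
  teq : Ts A Ψ = Ds A Ψ d
  com : ∀ t ∈ Ts A Ψ, ∀ s ∈ Ts A Ψ, ⁅t, s⁆ ∈ Cs A Ψ
  sq : ∀ t ∈ Ts A Ψ, t * t ∈ Cs A Ψ
  dec : ∀ m ∈ Ms A Ψ, ∃ t ∈ Ts A Ψ, ∃ a ∈ A d, m = t * a
  tr : ∀ y ∈ Ψ, ∃ t ∈ Ts A Ψ, t • d = y
  stab : ∀ t ∈ Ts A Ψ, t • d = d → t ∈ Cs A Ψ
  lin : ∀ t ∈ Ts A Ψ, t ∉ Cs A Ψ → ∃ y ∈ Ψ, y ≠ d ∧ ∃ r ∈ Rl A d y, r ∉ Zl A d y ∧
    ∃ k ∈ Ts A Ψ ⊓ Cs A Ψ, t = r * k
/-- structure of a good subspace, second part -/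
def GB (A : Ω → Subgroup G) (Ψ : Set Ω) : Prop := ∀ k ∈ Ts A Ψ ⊓ Cs A Ψ, k * k = 1

end Defs

/-- **SK** -/
def SkStmt : Prop := All fun _ _ _ _ _ A => Eps A → SK A
/-- **LA** -/
def LaStmt : Prop := All fun _ _ _ _ p A => p ≠ 2 → Eps A → Ty2 A → ∀ x y, x ≠ y → LA A x y
/-- **LB** -/
def LbStmt : Prop := All fun _ _ _ _ _ A => Eps A → SK A → ∀ x y, x ≠ y → LA A x y → LB A x y
/-- **LC** -/
def LcStmt : Prop := All fun _ _ _ _ p A => p ≠ 2 → Eps A → SK A → ∀ x y, x ≠ y → LA A x y → LB A x y →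
  LC A x y
/-- **LD** -/
def LdStmt : Prop := All fun _ _ _ _ _ A => SK A → ∀ x y, x ≠ y → LA A x y → LB A x y → LC A x y →
  LD A x y
/-- **TRI** the three cases -/
def TriStmt : Prop := All fun _ _ _ _ _ A => Eps A → SK A → LS A →
  (∀ x y, x ≠ y → Zl A x y = ⊥) ∨ (∀ x y, x ≠ y → Ani A x y ∧ Big A x y) ∨
    (∀ x y, x ≠ y → Ani A x y ∧ ¬ Big A x y)
/-- **FP0** the counting argument -/
def Fp0Stmt : Prop := All fun _ _ Ω _ _ A => SK A → LS A → ∀ x y, x ≠ y → ∀ a ∈ A x, a ≠ 1 →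
  ∀ s ∈ Rl A x y, s ∉ Zl A x y → ∀ w : Ω, ⁅a, s⁆ • w ≠ w
/-- **FPF** -/
def FpfStmt : Prop := Fp0Stmt → All fun _ _ _ _ _ A => SK A → LS A → Fpf A
/-- **TG** the triangle lemma -/
def TgStmt : Prop := All fun _ _ _ _ _ A => SK A → LS A → Fpf A → ∀ Ψ, Sub A Ψ → Good A Ψ →
  ∀ d ∈ Ψ, ∀ y ∈ Ψ, ∀ y' ∈ Ψ, y ≠ d → y' ≠ d → ∀ r ∈ Rl A d y, ∀ s ∈ Rl A d y', ⁅r, s⁆ ∈ Cs A Ψ
/-- **GA** -/
def GaStmt : Prop := TgStmt → All fun _ _ _ _ p A => p ≠ 2 → Eps A → SK A → LS A → Fpf A → ∀ Ψ, Sub A Ψ →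
  Good A Ψ → ∀ d ∈ Ψ, GA A Ψ d
/-- **GB** -/
def GbStmt : Prop := All fun _ _ _ _ p A => p ≠ 2 → SK A → LS A → ∀ Ψ, Sub A Ψ → Good A Ψ →
  ∀ d ∈ Ψ, GA A Ψ d → GB A Ψ
/-- **IVA** -/
def IvaStmt : Prop := All fun G _ Ω _ _ A => SK A → (∀ d, GA A Set.univ d) → RNS G Ω
/-- **NOF** no fixed point on an invariant line -/
def NofStmt : Prop := All fun _ _ _ _ _ A => Eps A → SK A → LS A → ∀ x y, x ≠ y → ∀ z ∈ Zl A x y,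
  ∀ b, z • b ≠ b → ∀ c ∈ Ln A b (z • b), z • c ≠ c
/-- **TRA** a fixed point free involution is a translation -/
def TraStmt : Prop := All fun G _ _ _ p A => p ≠ 2 → Eps A → SK A → LS A → ∀ (z : G), z * z = 1 →
  ∀ b, z • b ≠ b → (∀ c ∈ Ln A b (z • b), z • c ≠ c) →
  ∃ r ∈ Rl A b (z • b), r ∉ Zl A b (z • b) ∧ r⁻¹ * z ∈ Kl A b (z • b)
/-- **UEX** an element acting linearly -/
def UexStmt : Prop := All fun G _ _ _ _ A => SK A → LS A → ∀ Ψ, ∀ d ∈ Ψ, GA A Ψ d → ∀ x y, x ≠ y →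
  ∀ r ∈ Rl A x y, ∀ s ∈ Rl A x y, r * s = s * r → r ∉ Zl A x y → s ∉ Zl A x y → r * s ∉ Zl A x y →
  (∀ u ∈ Rl A x y, r * u = u * r → ∀ w, u • w ∈ Ψ ↔ w ∈ Ψ) →
  ∃ u ∈ Rl A x y, u ∉ Zl A x y ∧ r * u = u * r ∧ ∀ a ∈ A d, (⁅u, a⁆ : G) ∈ Ts A Ψ
/-- **COR** the commutator computation -/
def CorStmt : Prop := All fun G _ _ _ _ A => SK A → LS A → (∀ x y, x ≠ y → Ani A x y) →
  ∀ Ψ, Sub A Ψ → ∀ d ∈ Ψ, GA A Ψ d → GB A Ψ → ∀ u : G, u ^ 4 = 1 → (∀ w, u • w ∈ Ψ ↔ w ∈ Ψ) →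
  (∀ a ∈ A d, ⁅u, a⁆ ∈ Ts A Ψ) → (u * u) • d ≠ d →
  ∃ z0 ∈ Ts A Ψ ⊓ Cs A Ψ, z0 * (u * u) = (u * u) * z0 ∧ ∃ y ∈ Ψ, y ≠ d ∧
    (⁅u, z0⁆ : G) ∈ Zl A d y ∧ (⁅u, z0⁆ : G) ≠ 1
/-- **GOOD** the fixed subspaces are good -/
def GoodStmt : Prop := All fun _ _ Ω _ p A => Mc p A → Multi A → SK A → LS A → Fpf A →
  (∀ x y, x ≠ y → Ani A x y ∧ Big A x y) → ∀ x y, x ≠ y → ∀ z ∈ Zl A x y, z ≠ 1 → Good A (Fx Ω z)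
/-- **IVB** -/
def IvbStmt : Prop := GaStmt → TgStmt → GbStmt → NofStmt → TraStmt → UexStmt → CorStmt →
  All fun _ _ Ω _ p A => p ≠ 2 → Eps A → SK A → LS A → Fpf A →
  (∀ x y, x ≠ y → Ani A x y ∧ Big A x y) →
  (∀ x y, x ≠ y → ∀ z ∈ Zl A x y, z ≠ 1 → Good A (Fx Ω z)) → False
/-- **SL1** -/
def Sl1Stmt : Prop := All fun _ _ _ _ p A => p ≠ 2 → SK A → LS A → ∀ x y, x ≠ y → Ani A x y →
  Zl A x y ≠ ⊥ → ¬ Big A x y →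
  p = 3 ∧ Nat.card (Zl A x y) = 2 ∧ Nat.card (Rl A x y) = 8 ∧ (Ln A x y).ncard = 4
/-- **SL2** -/
def Sl2Stmt : Prop := All fun _ _ _ _ p A => SK A → LS A → ∀ x y, x ≠ y → Ani A x y → p = 3 →
  Nat.card (Zl A x y) = 2 → Nat.card (Rl A x y) = 8 → IsSL2 (Fl A x y) 3

theorem iv (sk : SkStmt) (la : LaStmt) (lb : LbStmt) (lc : LcStmt) (ld : LdStmt) (tri : TriStmt)
    (fp0 : Fp0Stmt) (fpf : FpfStmt) (tg : TgStmt) (ga : GaStmt) (gb : GbStmt) (iva : IvaStmt)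
    (nof : NofStmt) (tra : TraStmt) (uex : UexStmt) (cor : CorStmt) (ivb : IvbStmt)
    (sl1 : Sl1Stmt) (sl2 : Sl2Stmt) (good : GoodStmt) : IvStmt := by
  intro G _ _ Ω _ _ p A h mc ml t2
  have k := sk G Ω p A h mc.ep
  have ls : LS A := by
    intro x y hxy
    have a := la G Ω p A h mc.p2 mc.ep t2 x y hxy
    have b := lb G Ω p A h mc.ep k x y hxy a
    have c := lc G Ω p A h mc.p2 mc.ep k x y hxy a b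
    exact ⟨a, b, c, ld G Ω p A h k x y hxy a b c⟩
  have f := fpf fp0 G Ω p A h k ls
  have caseA : (∀ x y, x ≠ y → Zl A x y = ⊥) → False := by
    intro t
    refine mc.nr (iva G Ω p A h k (fun d => ga tg G Ω p A h mc.p2 mc.ep k ls f _ (fun _ _ _ _ _ _ _ => trivial) ?_ d trivial))
    intro x _ y _ hxy z hz w _
    rw [t x y hxy, mem_bot] at hz
    rw [hz, one_smul]
  rcases tri G Ω p A h mc.ep k ls with t | t | t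
  · exact (caseA t).elim
  · exact (ivb ga tg gb nof tra uex cor G Ω p A h mc.p2 mc.ep k ls f t
      (good G Ω p A h mc ml k ls f t)).elim
  · intro x y hxy
    have hz : Zl A x y ≠ ⊥ := by
      intro e
      apply (t x y hxy).2
      intro r hr hr'
      have h1 := (ls x y hxy).2.1.sq r hr
      rw [e, mem_bot] at h1
      exact absurd h1 ((t x y hxy).1 r hr hr')
    obtain ⟨e3, c2, c8, c4⟩ := sl1 G Ω p A h mc.p2 k ls x y hxy (t x y hxy).1 hz (t x y hxy).2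
    refine ⟨?_, by rw [c4, e3]⟩
    have := sl2 G Ω p A h k ls x y hxy (t x y hxy).1 e3 c2 c8
    rwa [e3]

end Cfsg.Agent.H45.Iv
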