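import Cfsg.Agent.H45.IvDefs

/-! Project CY (row S3256), chapter IV: the proof of `GoodStmt` through a quotient system. -/

set_option autoImplicit false

namespace Cfsg.Agent.H45.Gd

open Subgroup MulAction Cfsg.Agent.H11.Cy Cfsg.Agent.H45.Iv
open scoped commutatorElement

section Defs
variable {G : Type} [Group G] {Ω : Type} [MulAction G Ω]

/-- the basic setting without double transitivity -/
structure Bs (p : ℕ) (A : Ω → Subgroup G) : Prop where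
  pp : p.Prime
  p2 : p ≠ 2
  nt : Nontrivial Ω
  card : ∀ x, Nat.card (A x) = p
  fix : ∀ x, ∀ a ∈ A x, a • x = x
  eqv : ∀ (g : G) x, ∀ a ∈ A x, g * a * g⁻¹ ∈ A (g • x)
  semi : ∀ x y, ∀ a ∈ A x, a • y = y → a = 1 ∨ y = x
  nA : ∀ x (g : G), g ∈ normalizer (A x : Set G) ↔ g • x = x
  top : Ms A Set.univ = ⊤
  o2 : ∀ N : Subgroup G, N.Normal → IsPGroup 2 N → N = ⊥

/-- the part of `Eps` that survives -/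
structure Ep (A : Ω → Subgroup G) : Prop where
  eps : ∀ x y, x ≠ y → ∀ h ∈ Hs G x y, h ∈ centralizer (A x : Set G) → h ∈ Kl A x y
  kfix : ∀ x y, x ≠ y → ∀ h : G, h ∈ Kl A x y ↔ ∀ z ∈ Ln A x y, h • z = z
  span : ∀ x y, x ≠ y → ∀ z ∈ Ln A x y, ∀ w ∈ Ln A x y, z ≠ w → Fl A z w = Fl A x y

/-- proper subspaces are good -/
def PG (A : Ω → Subgroup G) (P : Set Ω) : Prop := ∀ Ψ : Set Ω, Sub A Ψ → Ψ ⊆ P → Ψ ≠ P →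
  Good A Ψ ∧ GB A Ψ ∧ ∀ d ∈ Ψ, GA A Ψ d

/-- the mixed system -/
structure MX (p : ℕ) (A : Ω → Subgroup G) : Prop where
  bs : Bs p A
  ep : Ep A
  sk : SK A
  ls : LS A
  big : ∀ x y, x ≠ y → Big A x y
  pg : PG A Set.univ

/-- maximal proper subspace -/
def Mx (A : Ω → Subgroup G) (Ψ : Set Ω) : Prop :=
  Sub A Ψ ∧ Ψ ≠ Set.univ ∧ ∀ Φ : Set Ω, Sub A Φ → Φ ≠ Set.univ → Ψ ⊆ Φ → Φ = Ψ
def Es (A : Ω → Subgroup G) (Ψ : Set Ω) : Subgroup G := Ts A Ψ ⊓ Cs A Ψ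

/-- kit for mixed systems -/
structure MK (A : Ω → Subgroup G) : Prop where
  ext : ∀ Φ : Set Ω, Sub A Φ → Φ ≠ Set.univ → ∃ Ψ, Mx A Ψ ∧ Φ ⊆ Ψ
  two : ∀ x y, x ≠ y → ∃ Ψ, Mx A Ψ ∧ Ln A x y ⊆ Ψ
  ne : ∀ Ψ, Mx A Ψ → Ψ.Nonempty
  gd : ∀ Ψ, Mx A Ψ → Good A Ψ ∧ GB A Ψ ∧ ∀ d ∈ Ψ, GA A Ψ d
  fx : ∀ Ψ, Mx A Ψ → ∀ z ∈ Es A Ψ, z ≠ 1 → ∀ w, z • w = w ↔ w ∈ Ψ
  cz : ∀ Ψ, Mx A Ψ → ∀ z ∈ Es A Ψ, z ≠ 1 → ∀ g : G, g * z = z * g → ∀ w, g • w ∈ Ψ ↔ w ∈ Ψ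
  ti : ∀ Ψ Φ, Mx A Ψ → Mx A Φ → Ψ ≠ Φ → ∀ z ∈ Es A Ψ, z ∈ Es A Φ → z = 1
  ze : ∀ Ψ, Mx A Ψ → ∀ x ∈ Ψ, ∀ y ∈ Ψ, x ≠ y → Zl A x y ≤ Es A Ψ
  cj : ∀ (g : G) Ψ, Mx A Ψ → Mx A ((fun w => g • w) '' Ψ) ∧
    ∀ z ∈ Es A Ψ, g * z * g⁻¹ ∈ Es A ((fun w => g • w) '' Ψ)
  t2 : ∀ Ψ, Mx A Ψ → IsPGroup 2 (Ts A Ψ)
  tr : ∀ x y : Ω, ∃ g : G, g • x = y

variable {H : Type} [Group H] {Θ : Type} [MulAction H Θ]

/-- projection of the subsystem `P` onto a quotient system -/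
structure PJ (A : Ω → Subgroup G) (P : Set Ω) (B : Θ → Subgroup H) (π : Ms A P →* H) (ρ : Ω → Θ) :
    Prop where
  surj : Function.Surjective π
  ker2 : IsPGroup 2 π.ker
  o2 : ∀ N : Subgroup H, N.Normal → IsPGroup 2 N → N = ⊥
  rsurj : ∀ w, ∃ x ∈ P, ρ x = w
  hB : ∀ x ∈ P, ∀ h : H, h ∈ B (ρ x) ↔ ∃ a : Ms A P, (a : G) ∈ A x ∧ π a = h
  inj : Function.Injective B
  act : ∀ (g : H) w (h : H), h ∈ B (g • w) ↔ g⁻¹ * h * g ∈ B w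

/-- images of lines -/
structure PM (A : Ω → Subgroup G) (P : Set Ω) (B : Θ → Subgroup H) (π : Ms A P →* H) (ρ : Ω → Θ) :
    Prop where
  eqv : ∀ (g : Ms A P), ∀ x ∈ P, ρ ((g : G) • x) = π g • ρ x
  fl : ∀ x ∈ P, ∀ y ∈ P, ∀ h : H, h ∈ Fl B (ρ x) (ρ y) ↔ ∃ g : Ms A P, (g : G) ∈ Fl A x y ∧ π g = h
  rl : ∀ x ∈ P, ∀ y ∈ P, ∀ h : H, h ∈ Rl B (ρ x) (ρ y) ↔ ∃ g : Ms A P, (g : G) ∈ Rl A x y ∧ π g = h
  kz : ∀ x ∈ P, ∀ y ∈ P, ρ x ≠ ρ y → ∀ g : Ms A P, (g : G) ∈ Fl A x y → π g = 1 → (g : G) ∈ Zl A x y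
  zl : ∀ x ∈ P, ∀ y ∈ P, ρ x ≠ ρ y → ∀ h : H,
    h ∈ Zl B (ρ x) (ρ y) ↔ ∃ g : Ms A P, (g : G) ∈ Zl A x y ∧ π g = h
  ln : ∀ x ∈ P, ∀ y ∈ P, ρ x ≠ ρ y → ∀ w, w ∈ Ln B (ρ x) (ρ y) ↔ ∃ c ∈ Ln A x y, ρ c = w
  lninj : ∀ x ∈ P, ∀ y ∈ P, ρ x ≠ ρ y → ∀ c ∈ Ln A x y, ∀ c' ∈ Ln A x y, ρ c = ρ c' → c = c'
  same : ∀ x ∈ P, ∀ y ∈ P, x ≠ y → ρ x = ρ y → ∀ g : Ms A P, (g : G) ∈ Rl A x y → π g = 1

end Defs

/-- statements on mixed systems -/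
def AllM (X : ∀ (G : Type) [Group G] (Ω : Type) [MulAction G Ω], ℕ → (Ω → Subgroup G) → Prop) : Prop :=
  ∀ (G : Type) [Group G] [Finite G] (Ω : Type) [Finite Ω] [MulAction G Ω] (p : ℕ)
    (A : Ω → Subgroup G), MX p A → X G Ω p A

/-- statements on projections of a real system -/
def AllP (X : ∀ (G : Type) [Group G] (Ω : Type) [MulAction G Ω] (H : Type) [Group H] (Θ : Type)
    [MulAction H Θ] (_ : ℕ) (A : Ω → Subgroup G) (P : Set Ω) (_ : Θ → Subgroup H)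
    (_ : Ms A P →* H) (_ : Ω → Θ), Prop) : Prop :=
  ∀ (G : Type) [Group G] [Finite G] (Ω : Type) [Finite Ω] [MulAction G Ω] (H : Type) [Group H]
    [Finite H] (Θ : Type) [Finite Θ] [MulAction H Θ] (p : ℕ) (A : Ω → Subgroup G) (P : Set Ω)
    (B : Θ → Subgroup H) (π : Ms A P →* H) (ρ : Ω → Θ), St p A → p ≠ 2 → Eps A → SK A → LS A →
    Sub A P → PJ A P B π ρ → X G Ω H Θ p A P B π ρ

/-! ### the real side -/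

/-- **NIL** -/
def NilStmt : Prop := All fun _ _ _ _ p A => p ≠ 2 → Eps A → SK A → LS A →
  (∀ x y, x ≠ y → Ani A x y) → ∀ Ψ, Sub A Ψ → IsPGroup 2 (Ts A Ψ) → Good A Ψ
/-- **Q0** -/
def Q0Stmt : Prop := All fun _ _ Ω _ _ A => SK A → ∀ P : Set Ω, Sub A P → P.Nonempty →
  ∃ (H : Type) (_ : Group H) (_ : Finite H) (Θ : Type) (_ : Finite Θ) (_ : MulAction H Θ)
    (B : Θ → Subgroup H) (π : Ms A P →* H) (ρ : Ω → Θ), PJ A P B π ρ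
/-- **Q1** -/
def Q1Stmt : Prop := AllP fun _ _ _ _ _ _ _ _ _ A P B π ρ => PM A P B π ρ
/-- **QB** -/
def QbStmt : Prop := AllP fun _ _ _ _ _ _ _ _ p A P B π ρ => PM A P B π ρ →
  ¬ IsPGroup 2 (Ts A P) → Bs p B
/-- **Q2** -/
def Q2Stmt : Prop := AllP fun _ _ _ _ _ _ _ _ p A P B π ρ => PM A P B π ρ → Bs p B →
  ∀ v w, v ≠ w → LA B v w
/-- **Q3** -/
def Q3Stmt : Prop := AllP fun _ _ _ _ _ _ _ _ p A P B π ρ => PM A P B π ρ → Bs p B →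
  ∀ v w, v ≠ w → LB B v w ∧ LC B v w
/-- **Q4** -/
def Q4Stmt : Prop := AllP fun _ _ _ _ _ _ _ _ p A P B π ρ => PM A P B π ρ → Bs p B →
  (∀ x y, x ≠ y → Big A x y) → ∀ v w, v ≠ w → LD B v w ∧ Big B v w
/-- **QE** -/
def QeStmt : Prop := ∀ (H : Type) [Group H] [Finite H] (Θ : Type) [Finite Θ] [MulAction H Θ] (p : ℕ)
  (B : Θ → Subgroup H), Bs p B → LS B → Ep B
/-- **QS** -/
def QsStmt : Prop := ∀ (H : Type) [Group H] [Finite H] (Θ : Type) [Finite Θ] [MulAction H Θ] (p : ℕ)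
  (B : Θ → Subgroup H), Bs p B → Ep B → SK B
/-- **Q5** -/
def Q5Stmt : Prop := AllP fun _ _ _ _ _ _ _ _ p A P B π ρ => PM A P B π ρ → Bs p B → SK B → LS B →
  PG A P → PG B Set.univ

/-! ### the mixed side -/

/-- **MK** -/
def MkStmt : Prop := AllM fun _ _ _ _ _ A => MK A
/-- **FP** -/
def FpStmt : Prop := AllM fun _ _ _ _ _ A => Fpf A
/-- **S** -/
def SStmt : Prop := AllM fun _ _ _ _ _ A => MK A → ∀ Ψ, Mx A Ψ → ∀ z ∈ Es A Ψ, z ≠ 1 → ∀ x, x ∉ Ψ →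
  z • x ≠ x ∧ ∃ r ∈ Rl A x (z • x), r ∉ Zl A x (z • x) ∧ r⁻¹ * z ∈ Kl A x (z • x)
/-- **Y** -/
def YP {G : Type} [Group G] {Ω : Type} [MulAction G Ω] (A : Ω → Subgroup G) : Prop :=
  ∀ Ψ Φ, Mx A Ψ → Mx A Φ → Ψ ≠ Φ → ∀ z ∈ Es A Ψ, z ≠ 1 → ∀ e ∈ Es A Φ, e ≠ 1 → z * e = e * z →
    ∀ y ∈ Ψ, y ∉ Φ
def YStmt : Prop := AllM fun _ _ _ _ _ A => MK A → YP A
/-- **ODD** -/
def OdP {G : Type} [Group G] {Ω : Type} [MulAction G Ω] (A : Ω → Subgroup G) : Prop :=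
  ∀ Ψ Φ, Mx A Ψ → Mx A Φ → Ψ ≠ Φ → ∀ z ∈ Es A Ψ, z ≠ 1 → ∀ e ∈ Es A Φ, e ≠ 1 →
    ∀ y ∈ Ψ, y ∈ Φ → Odd (orderOf (z * e))
def OdStmt : Prop := AllM fun _ _ _ _ _ A => MK A → YP A → OdP A
/-- **GC** -/
def GcP {G : Type} [Group G] {Ω : Type} [MulAction G Ω] (A : Ω → Subgroup G) : Prop :=
  ∀ Ψ, Mx A Ψ → Es A Ψ ≤ ⁅Ts A Ψ, Ts A Ψ⁆
def GcStmt : Prop := AllM fun _ _ _ _ _ A => MK A → GcP A
/-- **D** -/
def DP {G : Type} [Group G] {Ω : Type} [MulAction G Ω] (A : Ω → Subgroup G) : Prop :=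
  ∀ Ψ, Mx A Ψ → Es A Ψ ≠ ⊥ → ∀ x, x ∉ Ψ → ∀ b ∈ A x, b ≠ 1 →
    ∃ y ∈ Ψ, ∃ a ∈ A y, b * a⁻¹ ∈ Rl A x y ∧ (b * a⁻¹) * (b * a⁻¹) ≠ 1
def DStmt : Prop := AllM fun _ _ _ _ _ A => MK A → Fpf A → GcP A → DP A
/-- **D0** -/
def D0Stmt : Prop := AllM fun _ _ _ _ _ A => MK A → Fpf A → ∀ y, ∃ Ψ, Mx A Ψ ∧ Es A Ψ ≠ ⊥ ∧ y ∈ Ψ
/-- **A1** -/
def A1P {G : Type} [Group G] {Ω : Type} [MulAction G Ω] (A : Ω → Subgroup G) : Prop :=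
  ∀ Ψ, Mx A Ψ → ∀ z ∈ Es A Ψ, z ≠ 1 → ∀ x, x ∉ Ψ → ∀ b ∈ A x, b ≠ 1 →
    z * (b * z * b⁻¹) ≠ (b * z * b⁻¹) * z
def A1Stmt : Prop := AllM fun _ _ _ _ _ A => MK A → OdP A → DP A → A1P A
/-- **A2** -/
def A2P {G : Type} [Group G] {Ω : Type} [MulAction G Ω] (A : Ω → Subgroup G) : Prop :=
  ∀ Ψ, Mx A Ψ → Es A Ψ ≠ ⊥ → ∀ y ∈ Ψ, ∀ x, x ∉ Ψ → Ani A y x
def A2Stmt : Prop := SStmt → AllM fun _ _ _ _ _ A => MK A → YP A → A1P A → A2P A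
/-- **ALL** -/
def AlStmt : Prop := AllM fun _ _ _ _ _ A => MK A → (∀ y, ∃ Ψ, Mx A Ψ ∧ Es A Ψ ≠ ⊥ ∧ y ∈ Ψ) → A2P A →
  ∀ x y, x ≠ y → Ani A x y
/-- **UX** -/
def UxStmt : Prop := AllM fun G _ _ _ _ A => ∀ Ψ, ∀ d ∈ Ψ, GA A Ψ d → ∀ x y, x ≠ y →
  ∀ r ∈ Rl A x y, ∀ s ∈ Rl A x y, r * s = s * r → r ∉ Zl A x y → s ∉ Zl A x y → r * s ∉ Zl A x y →
  (∀ u ∈ Rl A x y, r * u = u * r → ∀ w, u • w ∈ Ψ ↔ w ∈ Ψ) →
  ∃ u ∈ Rl A x y, u ∉ Zl A x y ∧ r * u = u * r ∧ ∀ a ∈ A d, (⁅u, a⁆ : G) ∈ Ts A Ψ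
/-- **CX** -/
def CxStmt : Prop := AllM fun G _ _ _ _ A => (∀ x y, x ≠ y → Ani A x y) →
  ∀ Ψ, Sub A Ψ → ∀ d ∈ Ψ, GA A Ψ d → GB A Ψ → ∀ u : G, u ^ 4 = 1 → (∀ w, u • w ∈ Ψ ↔ w ∈ Ψ) →
  (∀ a ∈ A d, ⁅u, a⁆ ∈ Ts A Ψ) → (u * u) • d ≠ d →
  ∃ z0 ∈ Ts A Ψ ⊓ Cs A Ψ, z0 * (u * u) = (u * u) * z0 ∧ ∃ y ∈ Ψ, y ≠ d ∧
    (⁅u, z0⁆ : G) ∈ Zl A d y ∧ (⁅u, z0⁆ : G) ≠ 1
/-- **END** -/
def EnStmt : Prop := SStmt → UxStmt → CxStmt → AllM fun _ _ _ _ _ A => MK A → YP A →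
  (∀ y, ∃ Ψ, Mx A Ψ ∧ Es A Ψ ≠ ⊥ ∧ y ∈ Ψ) → (∀ x y, x ≠ y → Ani A x y) → False

theorem mixed (mk : MkStmt) (fp : FpStmt) (s : SStmt) (y : YStmt) (od : OdStmt) (gc : GcStmt)
    (d : DStmt) (d0 : D0Stmt) (a1 : A1Stmt) (a2 : A2Stmt) (al : AlStmt) (ux : UxStmt) (cx : CxStmt)
    (en : EnStmt) : AllM fun _ _ _ _ _ _ => False := by
  intro G _ _ Ω _ _ p A h
  have k := mk G Ω p A h
  have f := fp G Ω p A h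
  have hy := y G Ω p A h k
  have hd := d G Ω p A h k f (gc G Ω p A h k)
  have h0 := d0 G Ω p A h k f
  exact en s ux cx G Ω p A h k hy h0 (al G Ω p A h k h0
    (a2 s G Ω p A h k hy (a1 G Ω p A h k (od G Ω p A h k hy) hd)))

theorem good (tg : TgStmt) (ga : GaStmt) (gb : GbStmt) (nil : NilStmt) (q0 : Q0Stmt) (q1 : Q1Stmt)
    (qb : QbStmt) (q2 : Q2Stmt) (q3 : Q3Stmt) (q4 : Q4Stmt) (qe : QeStmt) (qs : QsStmt) (q5 : Q5Stmt)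
    (mx : AllM fun _ _ _ _ _ _ => False) : GoodStmt := by
  intro G _ _ Ω _ _ p A h mc ml k ls f t x y hxy z hz z1
  have key : ∀ n : ℕ, ∀ P : Set Ω, P.ncard ≤ n → Sub A P → Good A P := by
    intro n
    induction n with
    | zero =>
      intro P hP _ a ha
      have : P = ∅ := (Set.ncard_eq_zero (Set.toFinite P)).1 (Nat.le_zero.1 hP)
      rw [this] at ha
      exact ha.elim
    | succ n ih =>
      intro P hP hs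
      by_contra hb
      have pg : PG A P := by
        intro Ψ sΨ hle hne
        have g : Good A Ψ := ih Ψ (by
          have := Set.ncard_lt_ncard (hle.ssubset_of_ne hne) (Set.toFinite P)
          omega) sΨ
        have gA := fun d hd => ga tg G Ω p A h mc.p2 mc.ep k ls f Ψ sΨ g d hd
        refine ⟨g, ?_, gA⟩
        by_cases e : Ψ.Nonempty
        · obtain ⟨d, hd⟩ := e
          exact gb G Ω p A h mc.p2 k ls Ψ sΨ g d hd (gA d hd)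
        · intro c hc
          have e1 : Ms A Ψ = ⊥ := by
            rw [Set.not_nonempty_iff_eq_empty.1 e]
            simp [Ms]
          have e2 : c ∈ Ts A Ψ := hc.1
          rw [Ts, e1, Subgroup.commutator_bot_left, mem_bot] at e2
          rw [e2, one_mul]
      have ne : P.Nonempty := by
        by_contra e
        apply hb
        intro a ha
        exact (e ⟨a, ha⟩).elim
      have n2 : ¬ IsPGroup 2 (Ts A P) := fun e =>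
        hb (nil G Ω p A h mc.p2 mc.ep k ls (fun x y e => (t x y e).1) P hs e)
      obtain ⟨H, _, _, Θ, _, _, B, π, ρ, pj⟩ := q0 G Ω p A h k P hs ne
      have pm := q1 G Ω H Θ p A P B π ρ h mc.p2 mc.ep k ls hs pj
      have bs := qb G Ω H Θ p A P B π ρ h mc.p2 mc.ep k ls hs pj pm n2
      have h4 := q4 G Ω H Θ p A P B π ρ h mc.p2 mc.ep k ls hs pj pm bs (fun x y e => (t x y e).2)
      have lsB : LS B := fun v w e =>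
        ⟨q2 G Ω H Θ p A P B π ρ h mc.p2 mc.ep k ls hs pj pm bs v w e,
          (q3 G Ω H Θ p A P B π ρ h mc.p2 mc.ep k ls hs pj pm bs v w e).1,
          (q3 G Ω H Θ p A P B π ρ h mc.p2 mc.ep k ls hs pj pm bs v w e).2, (h4 v w e).1⟩
      have ep := qe H Θ p B bs lsB
      have skB := qs H Θ p B bs ep
      exact mx H Θ p B ⟨bs, ep, skB, lsB, fun v w e => (h4 v w e).2,
        q5 G Ω H Θ p A P B π ρ h mc.p2 mc.ep k ls hs pj pm bs skB lsB pg⟩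
  exact key _ _ le_rfl (k.fx x y hxy z hz).1

end Cfsg.Agent.H45.Gd
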