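import Cfsg.Agent.H53.AhKit

/-!
Project AH: the scalars of a primitive module are `±1`.
-/

set_option autoImplicit false

namespace Cfsg.Agent.H45.Nsc

open MulAction Cfsg.Agent.H12.RO Cfsg.Agent.H53.MW Cfsg.Agent.H53.AH Subgroup

universe u

variable {G V : Type*} [Group G] [AddCommGroup V] [DistribMulAction G V] {p : ℕ}
  {β : V →+ V →+ ZMod p} (h : Mod G V p β) {u : G}
  (hu : ∀ g : G, (∀ v : V, u • g • v = g • u • v) ∨ ∀ v : V, u • g • v = g • u⁻¹ • v)
include h

theorem inv_form (v : V) : β (u⁻¹ • v) v = - β (u • v) v := by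
  rw [← h.toFrm.adj', h.skew]

include hu

theorem form_smul (g : G) (v : V) :
    β (u • g • v) (g • v) = β (u • v) v ∨ β (u • g • v) (g • v) = - β (u • v) v :=
  (hu g).imp (fun e => by rw [e, h.inv]) fun e => by rw [e, h.inv, inv_form h]

omit hu in
theorem exists_form (h2 : ∃ v : V, u • v ≠ u⁻¹ • v) : ∃ v : V, β (u • v) v ≠ 0 := by
  by_contra hc
  push Not at hc
  obtain ⟨v, hv⟩ := h2
  refine hv (sub_eq_zero.1 (h.nd _ fun w => ?_))
  have := hc (v + w)
  rw [smul_add, add_left, map_add, map_add, hc, hc, zero_add, add_zero, h.skew v,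
    h.toFrm.adj'] at this
  rw [map_sub, AddMonoidHom.sub_apply]
  linear_combination this

theorem five {v : V} (hv : β (u • v) v ≠ 0) : p = 5 := by
  have := Fact.mk h.prime
  obtain ⟨g, hg⟩ := h.ep_two v
  have h1 := form_smul h hu g v
  rw [hg, smul_comm u 2 v, nsmul_left, nsmul_right] at h1
  rcases h1 with h1 | h1
  · have h3 : ((3 : ℕ) : ZMod p) * β (u • v) v = 0 := by
      push_cast at h1 ⊢; linear_combination h1
    exact absurd h3 (mul_ne_zero (h.cast_ne (by norm_num) (by norm_num)) hv)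
  · have h5 : ((5 : ℕ) : ZMod p) * β (u • v) v = 0 := by
      push_cast at h1 ⊢; linear_combination h1
    have h6 := (ZMod.natCast_eq_zero_iff 5 p).1 ((mul_eq_zero.1 h5).resolve_right hv)
    exact (Nat.prime_dvd_prime_iff_eq h.prime (by norm_num)).1 h6

theorem three [Finite G] [Finite V] (h3 : ∀ v : V, u⁻¹ • v = -v - u • v)
    (hi : ∀ v : V, v - u • v = 0 → v = 0) {v : V} (hv : β (u • v) v ≠ 0) : False := by
  have := Fact.mk h.prime
  have h4 : ∀ v : V, u • u • v = -v - u • v := fun v => by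
    have := h3 (u • v)
    rw [inv_smul_smul] at this
    linear_combination (norm := abel1) this
  have le : ∀ v : V, (orbit G v).ncard ≤ (orbit G (v - u • v)).ncard := fun v => by
    refine Set.ncard_le_ncard_of_injOn (fun w => w - u • w) ?_ (fun w _ w' _ e => ?_)
    · rintro _ ⟨g, rfl⟩
      rcases hu g with e | e
      · exact ⟨g, by simp only [e, smul_sub]⟩
      · obtain ⟨k, hk⟩ := h.ep_neg (v - u • v)
        refine ⟨g * u⁻¹ * k, ?_⟩
        simp only [mul_smul, hk]
        simp only [e, smul_sub, inv_smul_smul, neg_sub]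
    · refine sub_eq_zero.1 (hi _ ?_)
      have e' : w - u • w = w' - u • w' := e
      rw [smul_sub]
      linear_combination (norm := abel1) e'
  have e : orbit G (v - u • v - u • (v - u • v)) = orbit G v := by
    obtain ⟨g, hg⟩ := h.ep v (h.not_dvd (k := 3) (by norm_num) (by norm_num))
    obtain ⟨k, hk⟩ := h.ep_neg (3 • v)
    refine orbit_eq_iff.2 ⟨u * k * g, ?_⟩
    simp only [mul_smul, hg, hk, smul_neg, smul_sub, h4, smul_comm u 3 v]
    abel
  have h5 := le_antisymm (le v) (e ▸ le (v - u • v))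
  have hv0 : v ≠ 0 := by rintro rfl; simp at hv
  obtain ⟨g, hg⟩ := h.dos v (v - u • v) hv0 (fun e => hv0 (hi v e)) (by
    have a1 := (stabilizer G v).index_mul_card
    have a2 := (stabilizer G (v - u • v)).index_mul_card
    rw [index_stabilizer] at a1 a2
    rw [← h5, ← a1] at a2
    exact (Nat.eq_of_mul_eq_mul_left
      ((Set.ncard_pos (Set.toFinite _)).2 ⟨v, mem_orbit_self v⟩) a2).symm)
  have h6 := form_smul h hu g v
  have h7 : β (u • (v - u • v)) (v - u • v) = 3 * β (u • v) v := by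
    rw [smul_sub, h4]
    simp only [map_sub, map_neg, AddMonoidHom.sub_apply, AddMonoidHom.neg_apply, h.alt,
      h.skew (u • v) v]
    ring
  rw [hg, h7] at h6
  rcases h6 with h6 | h6
  · have h8 : ((2 : ℕ) : ZMod p) * β (u • v) v = 0 := by push_cast; linear_combination h6
    exact absurd h8 (mul_ne_zero (h.cast_ne (by norm_num) (by norm_num)) hv)
  · have h8 : ((4 : ℕ) : ZMod p) * β (u • v) v = 0 := by push_cast; linear_combination h6
    exact absurd h8 (mul_ne_zero (h.cast_ne (by norm_num) (by norm_num)) hv)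

omit h hu in
theorem exists_order [Finite G] {a : ℕ} (h1 : u ^ 6 ^ a = 1) (h2 : u ^ 2 ≠ 1) :
    ∃ m : ℕ, orderOf (u ^ m) = 3 ∨ orderOf (u ^ m) = 4 := by
  have h0 := (orderOf_pos u).ne'
  obtain ⟨i, j, e⟩ := (t23_of_dvd_pow (orderOf_dvd_of_pow_eq_one h1)).eq h0
  have key : ∀ d, d ∣ orderOf u → orderOf (u ^ (orderOf u / d)) = d := fun d hd =>
    orderOf_pow_orderOf_div h0 hd
  rcases j with _ | j
  · rcases i with _ | _ | i
    · exact absurd (orderOf_dvd_iff_pow_eq_one.1 (by rw [e]; norm_num)) h2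
    · exact absurd (orderOf_dvd_iff_pow_eq_one.1 (by rw [e]; norm_num)) h2
    · exact ⟨_, Or.inr (key 4 ⟨2 ^ i, by rw [e]; ring⟩)⟩
  · exact ⟨_, Or.inl (key 3 ⟨2 ^ i * 3 ^ j, by rw [e]; ring⟩)⟩

omit h hu in
/-- **NSC** -/
theorem nsc : NscStmt.{u} := by
  intro G V K W _ _ _ _ _ _ _ _ _ _ _ _ _ σ U To E M π b e pk p β h u0 hu0
  by_contra h2
  obtain ⟨a, ha⟩ := h.sm
  obtain ⟨m, hm⟩ := exists_order (pk.faith _ (ha u0)) h2
  obtain ⟨c, hc⟩ := pk.Usc _ (pow_mem hu0 m)
  generalize u0 ^ m = u at hm hc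
  obtain ⟨v0, hv0⟩ := exists_ne (0 : V)
  have hpow : ∀ k : ℕ, u ^ k = 1 ↔ c ^ k = 1 := fun k => by
    have h3 : ∀ v : V, u ^ k • v = c ^ k • v := by
      induction k with
      | zero => simp
      | succ k ih => intro v; rw [pow_succ', pow_succ', mul_smul, mul_smul, ih, hc]
    refine ⟨fun e => smul_left_injective K hv0 ?_, fun e => pk.faith _ fun v => ?_⟩
    · show c ^ k • v0 = (1 : K) • v0
      rw [← h3, e, one_smul, one_smul]
    · rw [h3, e, one_smul]
  have hinv : ∀ d : K, c * d = 1 → ∀ v : V, u⁻¹ • v = d • v := fun d e v => by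
    rw [inv_smul_eq_iff, hc, ← mul_smul, e, one_smul]
  have hcase : ∀ d : K, c * d = 1 → (∀ g, σ g c = c ∨ σ g d = c) → ∀ g : G,
      (∀ v : V, u • g • v = g • u • v) ∨ ∀ v : V, u • g • v = g • u⁻¹ • v := fun d e h3 g =>
    (h3 g).imp (fun h4 v => by rw [hc, hc, pk.semi, h4]) fun h4 v => by
      rw [hc, hinv d e, pk.semi, h4]
  have hne : c ^ 2 ≠ 1 := fun e => by
    have := orderOf_dvd_of_pow_eq_one ((hpow 2).2 e)
    rcases hm with hm | hm <;> rw [hm] at this <;> norm_num at this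
  have hex : ∀ d : K, c * d = 1 → ∃ v : V, β (u • v) v ≠ 0 := fun d e =>
    exists_form h ⟨v0, fun e' => hne (by
      rw [hc, hinv d e] at e'
      rw [sq, ← e, ← smul_left_injective K hv0 e'])⟩
  rcases hm with hm | hm
  · have h3 : c ^ 3 = 1 := (hpow 3).1 (hm ▸ pow_orderOf_eq_one u)
    have h1 : c - 1 ≠ 0 := fun e => hne (by rw [sub_eq_zero.1 e, one_pow])
    have h4 : c ^ 2 + c + 1 = 0 := (mul_eq_zero.1 (by linear_combination h3)).resolve_left h1
    have h5 : c * (-1 - c) = 1 := by linear_combination -h4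
    obtain ⟨v, hv⟩ := hex _ h5
    refine three h (hcase _ h5 fun g => ?_) (fun v => ?_) (fun v e => ?_) hv
    · have h6 := congrArg (σ g) h4
      simp only [map_add, map_pow, map_one, map_zero] at h6
      simp only [map_sub, map_neg, map_one]
      have h7 : (σ g c - c) * (-1 - σ g c - c) = 0 := by linear_combination h4 - h6
      exact (mul_eq_zero.1 h7).imp sub_eq_zero.1 sub_eq_zero.1
    · rw [hinv _ h5, hc, sub_smul, neg_smul, one_smul]
    · rw [hc, sub_eq_zero] at e
      by_contra h6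
      exact h1 (sub_eq_zero.2 (smul_left_injective K h6 (e.symm.trans (one_smul K v).symm)))
  · have h3 : c ^ 4 = 1 := (hpow 4).1 (hm ▸ pow_orderOf_eq_one u)
    have h4 : c ^ 2 + 1 = 0 :=
      (mul_eq_zero.1 (by linear_combination h3)).resolve_left (sub_ne_zero.2 hne)
    have h5 : c * (-c) = 1 := by linear_combination -h4
    obtain ⟨v, hv⟩ := hex _ h5
    have h6 := five h (hcase _ h5 fun g => by
      have h6 := congrArg (σ g) h4
      simp only [map_add, map_pow, map_one, map_zero] at h6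
      simp only [map_neg]
      have h7 : (σ g c - c) * (-σ g c - c) = 0 := by linear_combination h4 - h6
      exact (mul_eq_zero.1 h7).imp sub_eq_zero.1 sub_eq_zero.1) hv
    have h7 : (5 : K) = 0 := by
      have h8 := h.pV v0
      rw [h6, ← Nat.cast_smul_eq_nsmul K, smul_eq_zero] at h8
      exact_mod_cast h8.resolve_right hv0
    have h8 : (c - 2) * (c - 3) = 0 := by linear_combination h4 + (1 - c) * h7
    refine hv ?_
    rcases mul_eq_zero.1 h8 with e | e
    · rw [hc, sub_eq_zero.1 e, ← Nat.cast_ofNat, Nat.cast_smul_eq_nsmul, nsmul_left, h.alt, mul_zero]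
    · rw [hc, sub_eq_zero.1 e, ← Nat.cast_ofNat, Nat.cast_smul_eq_nsmul, nsmul_left, h.alt, mul_zero]

end Cfsg.Agent.H45.Nsc
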