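import Mathlib
import Cfsg.Agent.H45.FiA22
import Cfsg.Agent.H45.FiM24

/-!
# The outer involutions of `Fi₂₂`

They are the restrictions of involutions of `Fi₂₄` that swap two commuting transpositions.
-/

set_option autoImplicit false
set_option maxRecDepth 1000000
set_option Elab.async false

namespace Cfsg.Agent.H45

open Cfsg Cfsg.Agent.H41 Cfsg.Agent.H42 Equiv Subgroup

/-- The conjugate of `u` by `w` does not move the base point to a neighbour or it restricts to `s`. -/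
noncomputable def repB (u s w : List ℕ) : Bool :=
  force (pWr cf24.pp w (pW cf24.pp u (pW cf24.pp w 31671))) fun x => iteB (Nat.ble 31671 x) true
    (iteB (Nat.beq x 3510)
      (allL (fun b => Nat.beq (pWr cf24.pp w (pW cf24.pp u (pW cf24.pp w b))) (pW cfx.pp s b)) cfx.bas) false)

/-- The orbits of the centraliser of `u` are represented. -/
noncomputable def covB (u s : List ℕ) (ks ws : List (List ℕ)) (r : ℕ) : Bool :=
  iteB (allL (symB cf24 ⟨[u], [], [], []⟩) ks) (iteB (allL (repB u s) ws)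
    (sub (ones 306936) (orb cf24.ap ks r (setL (ws.map fun w => pW cf24.pp w 31671)))) false) false

theorem nb_ab : (3510 : Fin 306936) ∈ L24.F.nb 31671 := H60.tw242.clq.nb _ List.mem_cons_self

theorem cov {u s : List ℕ} {ks ws : List (List ℕ)} {r : ℕ} (H : covB u s ks ws r = true) {g : Perm (Fin 306936)}
    (hg : g ∈ L24.F.grp) (h1 : (g * wp N24.π u * g⁻¹) 31671 = 3510) {τ : Perm (Fin 3510)} (hτ : τ ∈ L22.F.aut)
    (hr : Res Amb.ι22 (g * wp N24.π u * g⁻¹) τ) : ∃ h ∈ L22.F.grp, τ = h * wp πx s * h⁻¹ := by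
  obtain ⟨a1, H⟩ := of_iteB H
  obtain ⟨a2, a3⟩ := of_iteB H
  obtain ⟨c, hc, p, hp, e⟩ := md24.act.exists_of_mem_orb (fun w hw => mem_closW N24.π hw)
    (bs_subset_of_sub a3 306936 (a := g⁻¹ 31671) (by rw [mem_bs, testBit_ones]; simp))
  obtain ⟨w, hw, e1⟩ := List.mem_map.mp (mem_setL.mp hp)
  have b1 := (mt_self_iff.mp (md24.symL a1 hc).2).1 u List.mem_cons_self
  have b2 : g * c * wp N24.π w ∈ L24.F.grp := mul_mem (mul_mem hg
    ((closW_le.mpr fun w _ => wp_mem fun i _ => mem24 i : closW N24.π ks ≤ L24.F.grp) hc)) (wp_mem fun i _ => mem24 i)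
  have b3 : (g * c * wp N24.π w) 31671 = 31671 := by
    rw [Perm.mul_apply, Perm.mul_apply, md24.apply_eq (p := 31671) e1, e]
    simp
  have b4 : ∀ b : Fin 306936, pWr cf24.pp w (pW cf24.pp u (pW cf24.pp w b)) =
      ((g * c * wp N24.π w)⁻¹ * (g * wp N24.π u * g⁻¹) * (g * c * wp N24.π w)) b := fun b => by
    rw [md24.pW_eq, md24.pW_eq, md24.pWr_eq, show (g * c * wp N24.π w)⁻¹ * (g * wp N24.π u * g⁻¹) * (g * c * wp N24.π w) =
      (wp N24.π w)⁻¹ * (c⁻¹ * (wp N24.π u * c)) * wp N24.π w by group, ← b1, inv_mul_cancel_left]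
    rfl
  have b5 := allL_iff.mp a2 w hw
  generalize g * c * wp N24.π w = h at b2 b3 b4
  generalize g * wp N24.π u * g⁻¹ = U at h1 hr b4
  have b6 := b4 31671
  rw [Perm.mul_apply, Perm.mul_apply, b3, h1] at b6
  have b7 : h⁻¹ 3510 ∈ L24.F.nb 31671 := (FS.aut_mem_nb_of_fix (inv_mem (FS.grp_le_aut b2))
    (Perm.inv_eq_iff_eq.mpr b3.symm)).mpr nb_ab
  have b8 : Nat.ble 31671 (h⁻¹ 3510 : Fin 306936) = false := by
    have := (md24.cl_O _).mp b7.2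
    have := Fin.val_ne_of_ne b7.1
    exact Bool.eq_false_iff.mpr fun h => by
      have := ble_iff.mp h
      change _ ≤ 31671 at *
      change _ ≠ 31671 at *
      omega
  unfold repB at b5
  rw [force_eq, show pWr cf24.pp w (pW cf24.pp u (pW cf24.pp w 31671)) = _ from b6, b8] at b5
  obtain ⟨b9, b10⟩ := of_iteB b5
  obtain ⟨h0, c1, c2⟩ := H60.tw242.desc h b2 (by
    simp only [List.forall_mem_cons]
    exact ⟨b3, (Perm.inv_eq_iff_eq.mp (Fin.ext (beq_iff.mp b9))).symm, by simp⟩)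
  refine ⟨h0, c1, ?_⟩
  have c3 := mdx.base ((wp πx s)⁻¹ * (h0⁻¹ * τ * h0)) (mul_mem (inv_mem (mdx.wp_aut s))
    (mul_mem (mul_mem (inv_mem (FS.grp_le_aut c1)) hτ) (FS.grp_le_aut c1))) fun b hb => by
      have := beq_iff.mp (allL_iff.mp b10 b hb)
      rw [show pWr cf24.pp w (pW cf24.pp u (pW cf24.pp w b)) = _ from b4 (Amb.ι22 b), (c2.inv.mul hr).mul c2,
        mdx.pW_eq] at this
      rw [Perm.mul_apply, Perm.inv_eq_iff_eq]
      exact Fin.ext this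
  rw [inv_mul_eq_one.mp c3]
  group

theorem ocv1 : covB [11] [] (lets [9, 5, 1, 0, 2, 13, 4, 3, 7, 8, 6, 12]) [[10, 0, 11, 10], [], [10]] 6 = true := by
  decide +kernel

theorem ocv2 : covB [11, 12] [9] (lets [5, 1, 0, 2, 13, 4, 3, 7, 8, 6]) [[10, 0, 11, 10], [9, 12, 13, 9, 10, 11, 13, 10], [9, 10, 11, 13, 10], [], [10], [1, 2, 3, 7, 8, 4, 5, 6, 9, 13, 10, 13, 9, 8, 7, 6, 5, 4, 3, 2, 1]] 6 = true := by
  decide +kernel

theorem ocv3 : covB [11, 12, 6] [9, 6] (lets [1, 0, 2, 13, 4, 3, 7, 8, 6, 12, 11]) [[10, 0, 11, 10], [9, 6, 13, 9, 10, 11, 13, 10], [5, 4, 3, 10, 11, 13, 10], [9, 12, 13, 9, 10, 11, 13, 10], [5, 6, 9, 10, 11, 13, 10], [9, 12, 13, 9, 10, 11, 13, 10, 5, 4, 6, 5, 9, 6, 13, 9, 1, 2, 3, 7, 8, 4, 5, 6, 9, 13, 10, 13, 9, 8, 7, 6, 5, 4, 3, 2, 1], [], [10], [1, 2, 3, 7, 8, 4, 5, 6, 9, 13, 10, 13, 9, 8, 7, 6, 5, 4, 3, 2, 1], [9, 6, 12, 9, 1, 2, 3, 7, 8,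 4, 5, 6, 9, 13, 10, 13, 9, 8, 7, 6, 5, 4, 3, 2, 1], [9, 13, 3, 8, 13, 10]] 6 = true := by
  decide +kernel

theorem ocv4 : covB [11, 12, 6, 0] [9, 6, 0] (lets [0, 2, 13, 4, 3, 7, 8, 6, 12, 11]) [[10, 11, 13, 10], [10, 0, 11, 10], [1, 10, 0, 11, 10], [9, 6, 13, 9, 10, 11, 13, 10], [5, 4, 3, 10, 11, 13, 10], [10, 0, 11, 10, 9, 6, 12, 9, 1, 2, 3, 7, 8, 4, 5, 6, 9, 13, 10, 13, 9, 8, 7, 6, 5, 4, 3, 2, 1], [9, 12, 13, 9, 10, 11, 13, 10], [5, 6, 9, 10, 11, 13, 10], [10, 0, 11, 10, 1, 2, 3, 7, 8, 4, 5, 6, 9, 13, 10, 13, 9, 8, 7, 6, 5, 4, 3, 2, 1], [9, 12, 13, 9, 10, 11, 13, 10, 5, 4, 6, 5, 9, 6, 13, 9, 1, 2, 3, 4, 13, 7, 8, 4, 5, 6, 9, 13, 10, 13, 9, 8, 7, 6, 5, 4, 3, 2, 1], [1, 9, 10, 0, 13, 10], [], [1, 0, 2, 1, 3, 2, 13, 3, 9, 12, 13, 9, 3, 4, 5, 6, 13, 3, 4, 5, 3, 2, 1, 0, 8, 4, 5, 6, 9, 13, 10, 13, 9, 8, 7, 6, 5, 4, 3, 2, 1], [1, 2, 3, 7, 8, 4, 5, 6, 9, 13, 10, 13,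 9, 8, 7, 6, 5, 4, 3, 2, 1], [9, 6, 12, 9, 1, 2, 3, 7, 8, 4, 5, 6, 9, 13, 10, 13, 9, 8, 7, 6, 5, 4, 3, 2, 1], [5, 4, 3, 13, 10], [9, 13, 3, 8, 13, 10], [7, 9, 10, 13, 8, 7, 3, 13, 10], [1, 2, 10, 11, 13, 8, 7, 3, 4, 13, 3, 8, 13, 10, 13, 8, 9, 12, 13, 9, 0, 1, 5, 4, 3, 2, 7, 3, 4, 5, 1, 2, 3, 7, 8, 4, 5, 6, 9, 13, 10, 13, 9, 8, 7, 6, 5, 4, 3, 2, 1], [3, 5, 6, 7, 8, 9, 13, 10], [1, 0, 10], [9, 10, 13, 3, 4, 7, 3, 8, 10, 0, 13, 10]] 6 = true := by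
  decide +kernel

theorem lift_inv {τ : Perm (Fin 3510)} (h1 : τ ∈ L22.F.aut) (h2 : τ * τ = 1) (h3 : τ ∉ L22.F.grp) :
    ∃ U ∈ L24.F.grp, U * U = 1 ∧ U 31671 = 3510 ∧ Res Amb.ι22 U τ := by
  obtain ⟨g, a1, a2, a3⟩ := H60.tw242.lift_aut (H60.C2_eq ▸ Amb.autL2) h1
  have a4 := H60.aut24_le a1
  have b1 := (a2 31671).mpr (by simp)
  have b2 := (a2 3510).mpr (by simp)
  simp only [List.mem_cons, List.not_mem_nil, or_false, Set.mem_setOf_eq] at b1 b2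
  have b3 : g 31671 = 3510 := b1.resolve_left fun h => by
    obtain ⟨g0, c1, c2⟩ := H60.tw242.desc g a4 (by
      simp only [List.forall_mem_cons]
      exact ⟨h, b2.resolve_left fun e => absurd (g.injective (e.trans h.symm)) (by decide), by simp⟩)
    exact h3 (c2.unique H60.tw242.emb.inj a3 ▸ c1)
  have b4 : g 3510 = 31671 := b2.resolve_right fun e => absurd (g.injective (e.trans b3.symm)) (by decide)
  have b5 : Res Amb.ι22 (g * g) 1 := h2 ▸ a3.mul a3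
  have t1 := a1 31671
  have t2 := a1 3510
  rw [b3] at t1
  rw [b4] at t2
  have ne : ∀ p, g * g = L24.F.T p → g p = p := fun p e => L24.F.inj (by rw [a1 p, ← e]; group)
  have b6 : (g * g) 31671 = 31671 := by rw [Perm.mul_apply, b3, b4]
  obtain ⟨g1, c1, c2⟩ := H60.lv24.desc_aut (mul_mem a1 a1) b6
  rcases H60.lv23.ker c1 (H60.lv24.emb.inj (by rw [← c2]; exact (congrArg g b4).trans b3))
    (fun p => H60.lv24.emb.inj (by rw [← c2]; exact b5 p)) with rfl | rfl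
  · exact ⟨g, a4, (H60.lv24.ker (mul_mem a1 a1) b6 c2).resolve_right fun e =>
      absurd ((ne _ e).symm.trans b3) (by decide), b3, a3⟩
  · have c3 := (H60.lv24.eq_of_res (mul_mem a1 a1) (FS.T_mem_aut 3510) b6 (FS.cl_comm.mp nb_ab.2) c2
      fun p => (H60.lv24.emb.map 3510 p).symm).resolve_left fun e => absurd ((ne _ e).symm.trans b4) (by decide)
    refine ⟨g * L24.F.T 31671, mul_mem a4 (FS.T_mem_grp _), ?_, by rw [Perm.mul_apply, FS.self_mem_cl, b3],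
      mul_one τ ▸ a3.mul (H60.tw242.res_one (FS.T_mem_gen (by simp)))⟩
    have c4 : L24.F.T 31671 * L24.F.T 3510 * (L24.F.T 31671)⁻¹ = L24.F.T 3510 := by
      rw [← FS.T_mem_aut 31671 3510, nb_ab.2]
    calc _ = (g * L24.F.T 31671 * g⁻¹) * (g * g) * L24.F.T 31671 := by group
      _ = L24.F.T 3510 * (L24.F.T 31671 * L24.F.T 3510 * (L24.F.T 31671)⁻¹) * (L24.F.T 31671 * L24.F.T 31671) := by
        rw [← t1, c3]; group; rfl
      _ = 1 := by rw [c4, L24.F.sq, L24.F.sq, one_mul]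

theorem out22 {τ : Perm (Fin 3510)} (h1 : τ ∈ L22.F.aut) (h2 : τ * τ = 1) (h3 : τ ∉ L22.F.grp) :
    ∃ s ∈ [[], [9], [9, 6], [9, 6, 0]], ∃ h ∈ L22.F.grp, τ = h * wp πx s * h⁻¹ := by
  obtain ⟨U, a1, a2, a3, a4⟩ := lift_inv h1 h2 h3
  obtain ⟨l, b1, b2, rfl⟩ := H60.inv24 U a1 a2
  obtain ⟨g, hg, e⟩ := H60.all24.map b1 (b2.trans (by simp))
  rw [e, H60.pr_map (FS.grp_le_aut hg), H60.pr24] at a3 a4
  generalize l.length = m at b2 a3 a4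
  interval_cases m
  · exact absurd a3 (by simp)
  exacts [⟨_, by simp, cov ocv1 hg a3 h1 a4⟩, ⟨_, by simp, cov ocv2 hg a3 h1 a4⟩, ⟨_, by simp, cov ocv3 hg a3 h1 a4⟩,
    ⟨_, by simp, cov ocv4 hg a3 h1 a4⟩]

theorem Rp.out {G : Type*} [Group G] {D : Set G} (R : Rp cf22 N22.π L22.F G D) {t : MulAut G} (h1 : t * t = 1)
    (h2 : t ∉ Inn G) : IsConj t (R.rx.v [9]) ∨ IsConj t (R.rx.v [9, 6]) ∨ IsConj t (R.rx.v [9, 6, 0]) := by
  obtain ⟨s, hs, h, hh, e⟩ := out22 (R.rx.aut t) (by rw [← map_mul, h1, map_one]) fun h => h2 (R.mem_inn.mpr h)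
  obtain ⟨g, rfl⟩ := R.exists_φ hh
  have k : IsConj t (R.rx.v s) := (isConj_iff.mpr ⟨MulAut.conj g, R.rx.inj (by
    rw [e, map_mul, map_mul, map_inv, R.rx_conj, R.rx.ψ_v])⟩).symm
  simp only [List.mem_cons, List.not_mem_nil, or_false] at hs
  rcases hs with rfl | rfl | rfl | rfl
  · rw [R.rx.v_nil, isConj_one_left] at k
    exact absurd (k ▸ one_mem _) h2
  exacts [Or.inl k, Or.inr (Or.inl k), Or.inr (Or.inr k)]

end Cfsg.Agent.H45
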