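import Cfsg.Agent.H54.RfKitP

/-! # Standard subgroups of type `²F₄(q)`: the cocycle `c` vanishes -/

set_option autoImplicit false
set_option linter.unusedSimpArgs false
set_option linter.unnecessarySeqFocus false
set_option linter.unusedSectionVars false

namespace Cfsg.Agent.H45.RfCz

open Cfsg Cfsg.Agent.H15.O8 Cfsg.Agent.H39 Cfsg.Agent.H36.O8T Subgroup Cfsg.Agent.H54.RF

universe u v

variable {K : Type*} [Field K] {T : Tits K} {G : Type*} [Group G] {M : FF T G} {t : G}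

/-- `g` acts on `V` by `v ↦ v x₄(f v)`, centralizes `U₄` and moves `t` by `m`. -/
structure Ac (M : FF T G) (t g : G) (f : U T → K) (m : U T) : Prop where
  v : ∀ v ∈ V T, g * M.φ v * g⁻¹ = M.φ (v * x4 T (f v))
  z : ∀ a, Commute g (M.φ (x4 T a))
  y : ∀ a, Commute g (M.φ (y4 T a))
  t : g * t * g⁻¹ = t * M.φ m
  m : m ∈ V T

theorem x4V (a : K) : x4 T a ∈ V T := by o8s

theorem x4_sq (M : FF T G) (b : K) : M.φ (x4 T b) * M.φ (x4 T b) = 1 := by
  rw [← map_mul, ← x4_add, add_self (T := T), x4_zero, map_one]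

theorem x4_c (M : FF T G) (k : U T) (b : K) : Commute (M.φ k) (M.φ (x4 T b)) :=
  (φ_comm M).2 (cZ _ (x4_mem _) k)

theorem inv_cj {g x z : G} (hz : z * z = 1) (c : Commute g z) (e : g * x * g⁻¹ = x * z) :
    g⁻¹ * x * g = x * z := by
  calc _ = g⁻¹ * (x * z) * (z * g) := by rw [← mul_assoc, mul_assoc _ _ z, mul_assoc x, hz, mul_one]
    _ = g⁻¹ * (g * x * g⁻¹) * (g * z) := by rw [e, c.eq]
    _ = _ := by group

theorem swap {g x z : G} (hz : z * z = 1) (c : Commute g z) (c' : Commute x z)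
    (e : g * x * g⁻¹ = x * z) : x * g * x⁻¹ = g * z := by
  calc _ = x * z * (z * g) * x⁻¹ := by rw [← mul_assoc _ z, mul_assoc x z, hz, mul_one]
    _ = g * x * g⁻¹ * (g * z) * x⁻¹ := by rw [e, c.eq]
    _ = g * (x * z * x⁻¹) := by group
    _ = _ := by rw [conj_eq_iff.2 c']

theorem mv {a b d y z : G} (h1 : Commute b y) (h2 : Commute d y) (h3 : Commute d z) :
    a * y * (b * z * d) = a * (b * d) * (y * z) := by
  rw [mul_assoc b, ← h3.eq, ← mul_assoc b, mul_assoc a, ← mul_assoc y, ← (h1.mul_left h2).eq]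
  group

namespace Ac

variable {g g' : G} {f f' : U T → K} {m m' : U T}

theorem mul (h : Ac M t g f m) (h' : Ac M t g' f' m') :
    Ac M t (g * g') (fun v => f v + f' v) (m * (m' * x4 T (f m'))) where
  v v hv := by
    calc _ = g * (g' * M.φ v * g'⁻¹) * g⁻¹ := by group
      _ = g * M.φ v * g⁻¹ * (g * M.φ (x4 T (f' v)) * g⁻¹) := by rw [h'.v v hv, map_mul]; group
      _ = _ := by rw [h.v v hv, conj_eq_iff.2 (h.z _), x4_add, ← map_mul, mul_assoc]
  z a := (h.z a).mul_left (h'.z a)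
  y a := (h.y a).mul_left (h'.y a)
  t := by
    calc _ = g * (g' * t * g'⁻¹) * g⁻¹ := by group
      _ = g * t * g⁻¹ * (g * M.φ m' * g⁻¹) := by rw [h'.t]; group
      _ = _ := by rw [h.t, h.v _ h'.m, mul_assoc, ← map_mul]
  m := mul_mem h.m (mul_mem h'.m (x4V _))

theorem n8 (c : Ctx M t) (h : Ac M t g f m) :
    Ac M t (M.n8 * g * M.n8) (fun v => f (w8 v)) (w8 m) where
  v v hv := by
    have := rel_conj M.n8n8 (h.v _ (w8_V hv))
    rwa [M.n8φ _ (w8_mem v), w8_w8 (V_le_Q hv), map_mul, conj_mul' M.n8n8, M.n8φ _ (w8_mem v),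
      w8_w8 (V_le_Q hv), n8_x4, ← map_mul] at this
  z a := n8_x4 M a ▸ comm_conj' M.n8n8 (h.z a)
  y a := n8_y4 M a ▸ comm_conj' M.n8n8 (h.y a)
  t := by
    have := rel_conj M.n8n8 h.t
    rwa [conj_mul' M.n8n8 t, conj_fix' M.n8n8 c.tn8.symm, M.n8φ _ (V_le_Q h.m)] at this
  m := w8_V h.m

theorem cj (c : Ctx M t) (h : Ac M t g f m) (k : U T) (hk : ∀ a, k * y4 T a = y4 T a * k) :
    Ac M t (M.φ k * g * (M.φ k)⁻¹) (fun v => f (k⁻¹ * v * k)) (k * m * k⁻¹) where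
  v v hv := by
    calc _ = M.φ k * (g * M.φ (k⁻¹ * v * k) * g⁻¹) * (M.φ k)⁻¹ := by
          simp only [map_mul, map_inv]; group
      _ = _ := by
          rw [h.v _ (by simpa using nV.conj_mem v hv k⁻¹), ← map_inv, ← map_mul, ← map_mul,
            mul_assoc, mul_assoc, ← cZ _ (x4_mem _) k⁻¹]
          congr 1; group
  z a := by
    have := comm_conj (h.z a) (M.φ k)
    rwa [conj_eq_iff.2 ((φ_comm M).2 (cZ _ (x4_mem _) k))] at this
  y a := by
    have := comm_conj (h.y a) (M.φ k)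
    rwa [conj_eq_iff.2 ((φ_comm M).2 (hk a))] at this
  t := by
    calc _ = M.φ k * (g * ((M.φ k)⁻¹ * t * M.φ k) * g⁻¹) * (M.φ k)⁻¹ := by group
      _ = M.φ k * t * (M.φ k)⁻¹ * (M.φ k * M.φ m * (M.φ k)⁻¹) := by
          rw [(c.tφ k).inv_left.eq, inv_mul_cancel_right, h.t]; group
      _ = _ := by rw [conj_eq_iff.2 (c.tφ k), map_mul, map_mul, map_inv]
  m := nV.conj_mem _ h.m k

theorem congr (h : Ac M t g f m) (hf : ∀ v ∈ V T, f v = f' v) (hm : m = m') : Ac M t g f' m' :=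
  ⟨fun v hv => hf v hv ▸ h.v v hv, h.z, h.y, hm ▸ h.t, hm ▸ h.m⟩

end Ac

section

variable {p : K → G} {c : K} (C : Ctx M t) (h : Pre M t p c) (τ : K →+* K)
  (hτ : ∀ a, T.θ (τ a) = a)
include h

theorem pV (a : K) {v : U T} (hv : v ∈ V T) : Commute (p a) (M.φ v) := h.cq a v (V_le_Q hv) hv.2.2.1

theorem cen6 (a : K) {u : U T} (hu : u ∈ E T) (h1 : w1 u ∈ Q T) (h2 : (w1 u).b4 = 0) :
    Commute (P6 M p a) (M.φ u) := by
  have := comm_conj' M.n1n1 (h.cq a _ h1 h2)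
  rwa [M.n1φ _ (w1_mem u), w1_w1 hu] at this

include C hτ

theorem ac6 (a : K) : Ac M t (P6 M p a) (fun v => c * τ a * τ v.a2) (x6 T a) where
  v v hv := by
    obtain ⟨k1, k2, k3, k4, k5, k6, k7⟩ := hv
    have e := rel_conj M.n1n1 (h.x8 (τ a) (τ v.a2))
    rw [hτ, hτ, n1_x8, map_mul, conj_mul' M.n1n1 (M.φ _), n1_x8, n1_x6, n1_p] at e
    have e1 : v = x2 T v.a2 * { v with a2 := 0 } := by ext <;> o8s <;> simp [*]
    have e2 := conj_eq_iff.2 (cen6 h a (u := { v with a2 := 0 }) k1 ⟨k2, rfl⟩ (by simp [w1, k2, k4]))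
    calc _ = P6 M p a * M.φ (x2 T v.a2) * (P6 M p a)⁻¹ *
          (P6 M p a * M.φ { v with a2 := 0 } * (P6 M p a)⁻¹) := by
          conv_lhs => rw [e1, map_mul]
          group
      _ = _ := by
          rw [e, e2, ← map_mul, ← map_mul, mul_assoc, ← cZ _ (x4_mem _), ← mul_assoc, ← e1]
  z b := cen6 h a rfl (by rw [w1_x4]; exact ⟨rfl, rfl⟩) (by rw [w1_x4]; rfl)
  y b := cen6 h a rfl (by rw [w1_y4]; exact ⟨rfl, rfl⟩) (by rw [w1_y4]; rfl)
  t := by
    have := rel_conj M.n1n1 (h.mov a)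
    rwa [conj_mul' M.n1n1 t, conj_fix' M.n1n1 C.tn1.symm, n1_x4] at this
  m := by o8s

theorem ac2 (a : K) : Ac M t (P2 M p a) (fun v => c * τ a * τ v.a6) (x2 T a) :=
  ((ac6 C h τ hτ a).n8 C).congr (fun v hv => by simp [w8, hv.2.2.2.2.1]) (w8_x6 a)

theorem ac8 (a u : K) : Ac M t (M.φ (x8 T u) * P2 M p a * (M.φ (x8 T u))⁻¹)
    (fun v => c * τ a * τ (v.a6 + v.a2 * T.θ u + v.a3 * u))
    (x2 T a * x4 T (T.θ a * u) * x5 T (a * u) * x6 T (a * T.θ u)) :=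
  ((ac2 C h τ hτ a).cj C (x8 T u) fun b => by ext <;> o8s).congr (fun v hv => by
    obtain ⟨k1, k2, k3, k4, k5, k6, k7⟩ := hv
    congr 2
    o8s
    simp only [k1, k2, k3, k4, k5, k6, k7]
    o8ring T) (by ext <;> o8s <;> o8ring T)

theorem c24 (s a : K) : Commute (p s) (P2 M p a) := by
  obtain ⟨z, e⟩ := h.n8 s
  have : Commute (M.n8 * p s * M.n8) (P2 M p a) := comm_conj' M.n8n8 (h.c46 s a)
  rw [e] at this
  simpa using this.mul_left ((ac2 C h τ hτ a).z z).symm.inv_left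

theorem cj8 (s a u : K) : p s * (M.φ (x8 T u) * P2 M p a * (M.φ (x8 T u))⁻¹) * (p s)⁻¹ =
    M.φ (x8 T u) * P2 M p a * (M.φ (x8 T u))⁻¹ * M.φ (x4 T (c * τ a * τ (c * τ s * τ u))) := by
  have e := h.x8 (τ s) (τ u)
  rw [hτ, hτ, map_mul] at e
  have a2 := ac2 C h τ hτ a
  have e2 := a2.v (x6 T (c * τ s * τ u)) (by o8s)
  rw [map_mul] at e2
  have e3 : M.φ (x6 T (c * τ s * τ u)) * P2 M p a * (M.φ (x6 T (c * τ s * τ u)))⁻¹ =
      P2 M p a * M.φ (x4 T (c * τ a * τ (c * τ s * τ u))) :=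
    swap (x4_sq M _) (a2.z _) (x4_c M _ _) e2
  calc _ = p s * M.φ (x8 T u) * (p s)⁻¹ * (p s * P2 M p a * (p s)⁻¹) *
        (p s * M.φ (x8 T u) * (p s)⁻¹)⁻¹ := by group
    _ = M.φ (x8 T u) * (M.φ (x6 T (c * τ s * τ u)) * P2 M p a * (M.φ (x6 T (c * τ s * τ u)))⁻¹) *
        (M.φ (x8 T u))⁻¹ := by rw [e, conj_eq_iff.2 (c24 C h τ hτ s a)]; group
    _ = _ := by
      rw [e3, ← mul_assoc, mul_assoc _ _ _⁻¹, ← (x4_c M (x8 T u) _).inv_left.eq, ← mul_assoc]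

end

theorem czero : CzeroStmt.{u, v} := by
  intro K _ _ T G _ _ M t C p c h
  by_contra c0
  have := T.charP
  let τ : K →+* K := (RingEquiv.ofBijective T.θ ⟨T.θ_inj, θ_surj⟩).symm
  have hτ : ∀ a, T.θ (τ a) = a := (RingEquiv.ofBijective T.θ ⟨T.θ_inj, θ_surj⟩).apply_symm_apply
  have τθ : ∀ a, τ (T.θ a) = a := fun a => T.θ_inj (hτ _)
  obtain ⟨A, A0, A1⟩ := H92.UL.exists_ne C.q2
  obtain ⟨s0, s1, s2, s3, s4, s5⟩ := H92.UL.scal (T := T) A0 A1
  set a := T.θ A with ha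
  set π := M.φ (x8 T 1) * P2 M p a * (M.φ (x8 T 1))⁻¹ * (M.φ (x8 T a) * P2 M p 1 * (M.φ (x8 T a))⁻¹ *
    (P2 M p (a + 1) * P6 M p (a + T.θ a))) with hπ
  obtain ⟨w, ac⟩ : ∃ w, Ac M t π (fun _ => 0) (x4 T w) := ⟨_, ((ac8 C.toCtx h τ hτ a 1).mul
    ((ac8 C.toCtx h τ hτ 1 a).mul ((ac2 C.toCtx h τ hτ (a + 1)).mul
    (ac6 C.toCtx h τ hτ (a + T.θ a))))).congr (fun v _ => by
      simp only [map_add, map_mul, map_one, τθ, ha]; grind) (eq_x4 (by
      o8s; grind))⟩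
  have pinv : ∀ {s x z}, p s * x * (p s)⁻¹ = x * M.φ (x4 T z) → (p s)⁻¹ * x * p s = x * M.φ (x4 T z) :=
    fun {s x z} e => inv_cj (x4_sq M z) (pV h s (x4V z)) e
  have hV : ∀ v ∈ V T, Commute (π * (p w)⁻¹) (M.φ v) := fun v hv =>
    (conj_eq_iff.1 ((ac.v v hv).trans (by rw [x4_zero, mul_one]))).mul_left (pV h w hv).inv_left
  obtain ⟨e, -, o, ho, -, hd⟩ := C.cw (g := π * (p w)⁻¹) (conj_eq_iff.1 (by
    calc _ = π * ((p w)⁻¹ * t * p w) * π⁻¹ := by group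
      _ = π * t * π⁻¹ * (π * M.φ (x4 T w) * π⁻¹) := by rw [pinv (h.mov w)]; group
      _ = t := by rw [ac.t, conj_eq_iff.2 (ac.z w), mul_assoc, x4_sq, mul_one])) fun v hv => hV v (R_le_V (W_le_R hv))
  obtain ⟨k1, k2, k3, k4, k5, k6⟩ : e ∈ D T := (H92.UL.cV e).2 fun v hv => C.dec_φ hd ho (hV v hv)
  have key : ∀ x, c * τ w * x = e.b4 * x ^ 2 + T.θ e.b4 * T.θ x := fun x => by
    have e1 := h.y4 (τ w) x
    rw [hτ, map_mul] at e1
    have e2 := C.dec_conj hd ho (φX M (y4 T (T.θ x)))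
    rw [show π * (p w)⁻¹ * M.φ (y4 T (T.θ x)) * (π * (p w)⁻¹)⁻¹ =
      π * ((p w)⁻¹ * M.φ (y4 T (T.θ x)) * p w) * π⁻¹ by group, pinv e1,
      conj_eq_iff.2 ((ac.y _).mul_right (ac.z _)), ← map_mul, eq_comm, mul_inv_eq_iff_eq_mul,
      ← map_mul, ← map_mul] at e2
    have e3 := congrArg U.a4 (M.inj e2)
    o8s at e3
    simp only [k1, k2, k3, k4, k5, k6, map_zero, mul_zero, zero_mul, add_zero, T.θθ] at e3
    grind
  have hA2 : T.θ A ≠ A ^ 2 := fun k => by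
    have := T.θθ A
    rw [k, map_pow, k] at this
    exact s4 (mul_right_cancel₀ (pow_ne_zero 2 A0) (by linear_combination this))
  have m0 : e.b4 = 0 := by
    have q1 := key 1
    have q2 := key A
    have q3 := key (A ^ 2)
    rw [map_one] at q1
    rw [map_pow] at q3
    have : e.b4 * ((A ^ 2 - A) * (A ^ 2 - T.θ A)) = 0 := by
      linear_combination -q3 + (A + T.θ A) * q2 - A * T.θ A * q1
    refine (mul_eq_zero.1 this).resolve_right (mul_ne_zero (fun k => A1 ?_) (sub_ne_zero.2 hA2.symm))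
    exact mul_left_cancel₀ A0 (by linear_combination k)
  have w0 : w = 0 := by
    have q1 := key 1
    rw [m0, map_zero, zero_mul, zero_mul, add_zero, mul_one] at q1
    rw [← hτ w, (mul_eq_zero.1 q1).resolve_left c0, map_zero]
  rw [w0, h.zero, inv_one, mul_one] at hd
  have eV : e ∈ V T := ⟨k1, k2, m0, k3, k4, k5, k6⟩
  have main : ∀ s, p s * π * (p s)⁻¹ = π * M.φ (x4 T (c * τ c * τ (τ s) * (A + τ A))) := fun s => by
    have z := (ac8 C.toCtx h τ hτ 1 a).z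
    have z2 := (ac2 C.toCtx h τ hτ (a + 1)).z
    have z6 := (ac6 C.toCtx h τ hτ (a + T.θ a)).z
    calc _ = p s * (M.φ (x8 T 1) * P2 M p a * (M.φ (x8 T 1))⁻¹) * (p s)⁻¹ *
          (p s * (M.φ (x8 T a) * P2 M p 1 * (M.φ (x8 T a))⁻¹) * (p s)⁻¹ *
          (p s * (P2 M p (a + 1) * P6 M p (a + T.θ a)) * (p s)⁻¹)) := by rw [hπ]; group
      _ = _ := by
        rw [cj8 C.toCtx h τ hτ, cj8 C.toCtx h τ hτ,
          conj_eq_iff.2 ((c24 C.toCtx h τ hτ s _).mul_right (show Commute _ (P6 M p _) from h.c46 s _)),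
          mv (z _) ((z2 _).mul_left (z6 _)) ((z2 _).mul_left (z6 _)), ← map_mul, ← x4_add]
        congr 3
        simp only [map_mul, map_one, τθ, ha]
        ring
  have k0 : c * τ c ≠ 0 := mul_ne_zero c0 ((map_ne_zero τ).2 c0)
  have x4inj : ∀ {b b'}, π * M.φ (x4 T b) = π * M.φ (x4 T b') → b = b' := fun e =>
    congrArg U.a4 (M.inj (mul_left_cancel e))
  rcases hd with hd | hd
  · have e1 := x4inj (b := 0) (((by rw [x4_zero, map_one, mul_one] : π * _ = π).trans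
      (conj_eq_iff.2 (hd ▸ (pV h 1 eV).mul_right (h.odd 1 o ho))).symm).trans (main 1))
    simp only [map_one, mul_one] at e1
    have e2 : A + τ A = 0 := (mul_eq_zero.1 e1.symm).resolve_left k0
    have e3 := congrArg T.θ e2
    rw [map_add, hτ, map_zero] at e3
    exact s5 (by grind)
  · have e1 : ∀ s, s = c * τ c * τ (τ s) * (A + τ A) := fun s => x4inj ((main s).symm ▸ by
      calc _ = p s * M.φ e * (p s)⁻¹ * (p s * t * (p s)⁻¹) * (p s * o * (p s)⁻¹) := by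
            rw [conj_eq_iff.2 (pV h s eV), conj_eq_iff.2 (h.odd s o ho), h.mov, hd, mul_assoc _ o,
              (ho.φ _).eq]; group
        _ = _ := by rw [hd]; group)
    have q1 := e1 1
    have q2 := e1 (T.θ (T.θ A))
    rw [τθ, τθ, T.θθ] at q2
    simp only [map_one, mul_one] at q1
    exact A1 (mul_left_cancel₀ A0 (by linear_combination q2 - A * q1))

end Cfsg.Agent.H45.RfCz
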