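import Cfsg.Agent.H74.RuDefs

/-! RU-LINE: every totally isotropic line has a good point. -/

set_option autoImplicit false

namespace Cfsg.Agent.H45.RuLine

open Cfsg Module Cfsg.Agent.H31 Cfsg.Agent.H74.Ru

variable {F V : Type} [Field F] [Fintype F] [AddCommGroup V] [Module F V]

omit [Fintype F] in
theorem fin2 {x y : V} (hx : x ≠ 0) (hy : y ∉ F ∙ x) :
    finrank F (Submodule.span F ({x, y} : Set V)) = 2 := by
  have li : LinearIndependent F ![y, x] := by
    rw [linearIndependent_fin2]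
    refine ⟨by simpa using hx, fun a h => hy ?_⟩
    simp only [Matrix.cons_val_one, Matrix.cons_val_zero] at h
    exact Submodule.mem_span_singleton.2 ⟨a, h⟩
  have h := finrank_span_eq_card li
  have e : Set.range ![y, x] = ({x, y} : Set V) := by
    ext z
    simp [eq_comm, or_comm]
  rw [e] at h
  simpa using h

theorem perpL (S : Un F V) {x y : V} (h : S.TI x y) :
    ∀ a ∈ Submodule.span F ({x, y} : Set V), ∀ b ∈ Submodule.span F ({x, y} : Set V),
      S.B a b = 0 := by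
  intro a ha b hb
  obtain ⟨a1, a2, rfl⟩ := Submodule.mem_span_pair.1 ha
  obtain ⟨b1, b2, rfl⟩ := Submodule.mem_span_pair.1 hb
  have h4 : S.B y x = 0 := S.herm.toIsHermSymm.flip_zero h.2.2.1
  simp only [map_add, LinearMap.add_apply, smul_left, smul_right, h.1, h.2.1, h.2.2.1, h4, mul_zero, add_zero]

theorem span_eq [FiniteDimensional F V] (S : Un F V) {x y x' y' : V} (h : S.TI x y)
    (hx : x' ∈ Submodule.span F ({x, y} : Set V)) (hy : y' ∈ Submodule.span F ({x, y} : Set V))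
    (h0 : x' ≠ 0) (h1 : y' ∉ F ∙ x') :
    S.TI x' y' ∧ Submodule.span F ({x', y'} : Set V) = Submodule.span F ({x, y} : Set V) := by
  refine ⟨⟨perpL S h _ hx _ hx, perpL S h _ hy _ hy, perpL S h _ hx _ hy, h0, h1⟩, ?_⟩
  apply Submodule.eq_of_le_of_finrank_eq
  · rw [Submodule.span_le]
    rintro z (rfl | rfl)
    · exact hx
    · exact hy
  · rw [fin2 h0 h1, fin2 h.2.2.2.1 h.2.2.2.2]

theorem exists_out [FiniteDimensional F V] (S : Un F V) {x y : V} (h : S.TI x y) {x' : V}
    (h0 : x' ≠ 0) : ∃ y' ∈ Submodule.span F ({x, y} : Set V), y' ∉ F ∙ x' := by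
  by_contra hc
  push Not at hc
  have hle : Submodule.span F ({x, y} : Set V) ≤ F ∙ x' := fun z hz => hc z hz
  have := Submodule.finrank_mono hle
  rw [fin2 h.2.2.2.1 h.2.2.2.2, finrank_span_singleton h0] at this
  omega

theorem Fl0 (S : Un F V) (v : Fin S.n → V) : Fl F v 0 = ⊥ := by
  simp [Fl]

theorem Fl1 (S : Un F V) (v : Fin S.n → V) : Fl F v 1 = F ∙ v S.i0 := by
  have e : {j : Fin S.n | j.val < 1} = {S.i0} := by
    ext j
    simp only [Set.mem_setOf_eq, Set.mem_singleton_iff, Un.i0, Fin.ext_iff]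
    omega
  rw [Fl, e, Set.image_singleton]

theorem Fl2 (S : Un F V) (v : Fin S.n → V) :
    Fl F v 2 = Submodule.span F ({v S.i0, v S.i1} : Set V) := by
  have e : {j : Fin S.n | j.val < 2} = {S.i0, S.i1} := by
    ext j
    simp only [Set.mem_setOf_eq, Set.mem_insert_iff, Set.mem_singleton_iff, Un.i0, Un.i1,
      Fin.ext_iff]
    omega
  rw [Fl, e, Set.image_pair]

theorem line (ka : KaStmt) (frm : FrmStmt) (fix : FixStmt) (flag : FlagStmt) (pan : PanStmt)
    (ext : ExtStmt) : LineStmt := by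
  intro F V _ _ _ _ _ S K hK ha hb hd x y hxy
  set L := Submodule.span F ({x, y} : Set V) with hL
  have hL2 : finrank F L = 2 := fin2 hxy.2.2.2.1 hxy.2.2.2.2
  obtain ⟨g, hg, ⟨m, hm⟩, y0, hy0, hgy0⟩ := pan F V S.q S.hF S.hq (K ⊓ stab L) L hL2
    (fun g hg z hz => (mem_stab.1 hg.2 z).1 hz) (by
      intro x' hx' h0
      obtain ⟨y', hy', h1⟩ := exists_out S hxy h0
      obtain ⟨ti, e⟩ := span_eq S hxy hx' hy' h0 h1
      obtain ⟨v, hv, v0, v1⟩ := (frm S).2.1 x' y' ti
      obtain ⟨j, hj, hc⟩ := ha v hv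
      refine ⟨j, hj, fun c => ?_⟩
      obtain ⟨g, hg, t, ht, e'⟩ := hc c
      have f2 : Fl F v 2 = L := by rw [Fl2, v0, v1, e]
      have g0 : g x' = (t S.i0 : F) • x' := by
        have := ht S.i0
        rw [show S.i0.val = 0 from rfl, Fl0, Submodule.mem_bot, sub_eq_zero, v0] at this
        exact this
      have g1 : g y' - (t S.i1 : F) • y' ∈ F ∙ x' := by
        have := ht S.i1
        rw [show S.i1.val = 1 from rfl, Fl1, v0, v1] at this
        exact this
      refine ⟨g, ⟨hg, mem_stab.2 fun z => ?_⟩, t S.i0, t S.i1, g0, fun z hz => ?_, e'⟩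
      · rw [← f2]
        exact (((ka S v hv).2.2.2.2.2.2.2.1 g t ht 2).1 z).symm
      · rw [hL, ← e] at hz
        obtain ⟨a, b, rfl⟩ := Submodule.mem_span_pair.1 hz
        have : g (a • x' + b • y') - (t S.i1 : F) • (a • x' + b • y') =
            (a * (t S.i0 - t S.i1 : F)) • x' + b • (g y' - (t S.i1 : F) • y') := by
          rw [map_add, map_smul, map_smul, g0]
          module
        rw [this]
        exact add_mem (Submodule.smul_mem _ _ (Submodule.mem_span_singleton_self _))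
          (Submodule.smul_mem _ _ g1))
  have hPK : Subgroup.zpowers g ≤ K ⊓ stab L := (Subgroup.zpowers_le).2 hg
  have hPG : Subgroup.zpowers g ≤ S.G := fun h hh => hK (hPK hh).1
  have hP : IsPGroup (ringChar F) (Subgroup.zpowers g) := by
    rintro ⟨h, z, rfl⟩
    refine ⟨m, Subtype.ext ?_⟩
    change (g ^ z) ^ ringChar F ^ m = 1
    rw [← zpow_natCast, ← zpow_mul, mul_comm, zpow_mul, zpow_natCast, hm, one_zpow]
  have hinv : ∀ h ∈ Subgroup.zpowers g, ∀ r ∈ L, h r ∈ L :=
    fun h hh r hr => (mem_stab.1 (hPK hh).2 r).1 hr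
  have hxL : x ∈ L := Submodule.subset_span (by simp)
  obtain ⟨x', hx', h0, -, fx⟩ := fix S _ hPG hP ⊥ L bot_le
    (fun a ha' r _ => by rw [(Submodule.mem_bot F).1 ha', zero_left])
    (fun h _ a ha' => by rw [(Submodule.mem_bot F).1 ha', map_zero]; exact zero_mem _) hinv
    ⟨x, hxL, by simpa using hxy.2.2.2.1, hxy.1⟩
  have h0' : x' ≠ 0 := by simpa using h0
  have fx' : ∀ h ∈ Subgroup.zpowers g, h x' = x' := fun h hh => by
    have := fx h hh
    rwa [Submodule.mem_bot, sub_eq_zero] at this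
  have hle : (F ∙ x') ≤ L := (Submodule.span_singleton_le_iff_mem _ _).2 hx'
  obtain ⟨y1, hy1, h1⟩ := exists_out S hxy h0'
  obtain ⟨y', hy', h1', -, fy⟩ := fix S _ hPG hP (F ∙ x') L hle
    (fun a ha' r hr => perpL S hxy _ (hle ha') _ hr)
    (fun h hh a ha' => by
      obtain ⟨c, rfl⟩ := Submodule.mem_span_singleton.1 ha'
      rw [map_smul, fx' h hh]
      exact ha') hinv ⟨y1, hy1, h1, perpL S hxy _ hy1 _ hy1⟩
  obtain ⟨ti, e⟩ := span_eq S hxy hx' hy' h0' h1'
  obtain ⟨v, hv, v0, v1, tr⟩ := flag S _ hPG hP x' y' ti fun h hh => ⟨fx' h hh, fy h hh⟩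
  have hne : g (v S.i1) ≠ v S.i1 := by
    rw [v1]
    intro hc
    apply hgy0
    rw [hL, ← e] at hy0
    obtain ⟨a, b, rfl⟩ := Submodule.mem_span_pair.1 hy0
    rw [map_add, map_smul, map_smul, hc, fx' g (Subgroup.mem_zpowers g)]
  have nb := ext S K hK hb v hv g hg.1 (tr g (Subgroup.mem_zpowers g)) hne
  rw [v0, v1] at nb
  exact ⟨x', y', ti, e, (hd x' y' ti).resolve_right nb⟩

end Cfsg.Agent.H45.RuLine
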