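import Cfsg.Agent.H58.SWDefs

/-! Project SW, pieces PAR2U and PAR4U. -/

set_option autoImplicit false
set_option linter.unusedVariables false
set_option linter.unusedSectionVars false
open Matrix Cfsg
open scoped commutatorElement

namespace Cfsg.Agent.H45.SwPar2U

open Cfsg.Agent.H58.SW

variable {F : Type} [Field F] [Fintype F] [DecidableEq F] {n : ℕ} {c : Cl F n}

theorem hf_sub (ka : KA c) (v v' w : Vc n F) : c.hf (v - v') w = c.hf v w - c.hf v' w := by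
  have h := ka.hf_add (v - v') v' w
  rw [sub_add_cancel] at h
  rw [h]; ring

theorem q_ne (ka : KA c) : c.q ≠ 0 := by have := ka.two_le; omega

theorem hf_flip (ka : KA c) (hu : c.u = true) {v w : Vc n F} (h : c.hf v w = 0) : c.hf w v = 0 := by
  rw [ka.hf_symm hu v w, h, zero_pow (q_ne ka)]

theorem uni (ka : KA c) (hu : c.u = true) {x : Gl n F} (hx : x ∈ c.St) (v w : Vc n F) :
    c.hf ((x : Mt n F) *ᵥ v) ((x : Mt n F) *ᵥ w) = c.hf v w := by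
  rw [ka.hf_adj hu, mulVec_mulVec, (ka.mem_St x).1 hx hu, one_mulVec]

theorem mul_ap (x y : Gl n F) (v : Vc n F) :
    ((x * y : Gl n F) : Mt n F) *ᵥ v = (x : Mt n F) *ᵥ ((y : Mt n F) *ᵥ v) := by
  rw [mulVec_mulVec]; rfl

theorem inv_ap (x : Gl n F) (v : Vc n F) :
    ((x⁻¹ : Gl n F) : Mt n F) *ᵥ ((x : Mt n F) *ᵥ v) = v := by
  rw [← mul_ap, inv_mul_cancel]; simp

theorem ap_inv (x : Gl n F) (v : Vc n F) :
    (x : Mt n F) *ᵥ (((x⁻¹ : Gl n F) : Mt n F) *ᵥ v) = v := by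
  rw [← mul_ap, mul_inv_cancel]; simp

theorem dperp (ka : KA c) (hu : c.u = true) {Y Y' : Submodule F (Vc n F)}
    (h : ∀ v, v ∈ Y' ↔ ∀ w ∈ Y, c.hf v w = 0) (u : Vc n F) (hw : ∀ w ∈ Y', c.hf u w = 0) : u ∈ Y := by
  by_contra hn
  obtain ⟨f, hf, hY⟩ := Submodule.exists_dual_map_eq_bot_of_notMem hn inferInstance
  let w : Vc n F := fun i => (f (fun j => if i = j then 1 else 0)) ^ c.q
  have key : ∀ v, c.hf v w = f v := by
    intro v
    rw [LinearMap.pi_apply_eq_sum_univ f v]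
    unfold Cl.hf hermForm
    refine Finset.sum_congr rfl (fun i _ => ?_)
    simp only [w, ka.fr_fr hu, smul_eq_mul]
  have hw' : w ∈ Y' := by
    rw [h]
    intro y hy
    apply hf_flip ka hu
    rw [key]
    have : f y ∈ Y.map f := Submodule.mem_map_of_mem hy
    rw [hY] at this
    exact (Submodule.mem_bot F).1 this
  exact hf (by rw [← key]; exact hw w hw')

/-- Eichler elements with `y ∈ Y` lie in `hat H` -/
theorem eich (ka : KA c) (kv : KV c) (hu : c.u = true) {H : Subgroup (Au n F)}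
    {Y Y' : Submodule F (Vc n F)} (fl : Flag c H Y Y') (y w : Vc n F) (hy : y ∈ Y)
    (hyw : c.hf w y = 0) : ∃ g ∈ c.hat H, ∃ θ : F, ∀ v, (g : Mt n F) *ᵥ v =
      v + c.hf v w • y - c.hf v y • w - (θ * c.hf v y) • y := by
  obtain ⟨θ0, h0⟩ := ka.th hu
  have hY' := fl.uni hu
  have hyy : c.hf y y = 0 := (hY' y).1 (fl.le hy) y hy
  have hww : c.hf w w ^ c.q = c.hf w w := (ka.hf_symm hu w w).symm
  obtain ⟨g, gS, -, hg⟩ := kv.eich hu y w (θ0 * c.hf w w) hyy (hf_flip ka hu hyw) (by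
    rw [mul_pow, hww, ← add_mul, h0, one_mul])
  have hap : ∀ v, (g : Mt n F) *ᵥ v =
      v + c.hf v w • y - c.hf v y • w - ((θ0 * c.hf w w) * c.hf v y) • y := by
    intro v
    rw [hg, sub_mulVec, sub_mulVec, add_mulVec, one_mulVec, smul_mulVec, ka.vec_ap, ka.vec_ap,
      ka.vec_ap, smul_smul]
  refine ⟨g, fl.mem g gS ?_ ?_, θ0 * c.hf w w, hap⟩
  · intro v hv
    rw [hap, (hY' v).1 (fl.le hv) y hy]
    simp only [zero_smul, mul_zero, sub_zero]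
    exact Y.add_mem hv (Y.smul_mem _ hy)
  · intro v hv
    rw [hap, (hY' v).1 hv y hy]
    simp only [zero_smul, mul_zero, sub_zero]
    exact Y'.add_mem hv (Y'.smul_mem _ (fl.le hy))

theorem cen_of (ka : KA c) (hu : c.u = true) {Y Y' : Submodule F (Vc n F)}
    (h : ∀ v, v ∈ Y' ↔ ∀ w ∈ Y, c.hf v w = 0) {k : Gl n F} (hk : k ∈ c.St)
    (hf : ∀ v ∈ Y', (k : Mt n F) *ᵥ v = v) : Cen k Y Y' := by
  refine ⟨hf, fun v => dperp ka hu h _ (fun w hw => ?_)⟩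
  rw [hf_sub ka]
  have := uni ka hu hk v w
  rw [hf w hw] at this
  rw [this, sub_self]

theorem par2u (hKA : KAStmt) (hKT : KTStmt) (hKV : KVStmt) (hP : PunStmt) (hT : TriUStmt) :
    Par2UStmt := by
  intro F _ _ _ n c r H Q L hr hu Y Y' X fl hZX hXQ hXi
  have ka := hKA F n c
  have kt := hKT F n c
  have kv := hKV F n c
  have hY' := fl.uni hu
  obtain ⟨X0, i0, s0, n0, -, m0⟩ := hP F n c r H Q L hr X hZX hXQ hXi
  obtain ⟨⟨z, hz⟩, hz1⟩ := Subgroup.ne_bot_iff_exists_ne_one.1 n0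
  have z1 : z ≠ 1 := fun h => hz1 (Subtype.ext h)
  obtain ⟨zX, zU⟩ := (m0 z).1 hz
  have zH : z ∈ c.hat H := L.qh (hXQ zX)
  have zS : z ∈ c.St := ((ka.mem_hat H z).1 zH).1
  obtain ⟨t1, t2, t3⟩ := hT F n c r H Q L hr hu Y Y' fl z (hXQ zX) zU
  by_cases hA : ∀ v ∈ Y', (z : Mt n F) *ᵥ v = v
  · exact ⟨z, zX, z1, zU, cen_of ka hu hY' zS hA⟩
  push Not at hA
  obtain ⟨w0, w0Y, hw0⟩ := hA
  obtain ⟨l, hl⟩ := ka.fr_ne hu
  obtain ⟨u, hud⟩ : ∃ u, u = (z : Mt n F) *ᵥ w0 - w0 := ⟨_, rfl⟩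
  have uY : u ∈ Y := hud ▸ t2 w0 w0Y
  have u0 : u ≠ 0 := fun h => hw0 (by rw [h] at hud; exact sub_eq_zero.1 hud.symm)
  have zw0 : (z : Mt n F) *ᵥ w0 = w0 + u := by rw [hud]; abel
  have wY : l • w0 ∈ Y' := Y'.smul_mem l w0Y
  obtain ⟨g, gH, θ, hg⟩ := eich ka kv hu fl u (l • w0) uY ((hY' _).1 wY u uY)
  have gS : g ∈ c.St := ((ka.mem_hat H g).1 gH).1
  have kX0 : g * z * g⁻¹ * z⁻¹ ∈ X0 := X0.mul_mem (kt.hatG H X0 i0 g gH z hz) (X0.inv_mem hz)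
  obtain ⟨kX, kU⟩ := (m0 _).1 kX0
  -- the difference of the two products
  have diff : ∀ v, (g : Mt n F) *ᵥ ((z : Mt n F) *ᵥ v) - (z : Mt n F) *ᵥ ((g : Mt n F) *ᵥ v) =
      (c.hf v u * (l - l ^ c.q)) • u := by
    intro v
    obtain ⟨p, hp⟩ : ∃ p, p = (z : Mt n F) *ᵥ v - v := ⟨_, rfl⟩
    have pY : p ∈ Y' := hp ▸ t3 v
    have zv : (z : Mt n F) *ᵥ v = v + p := by rw [hp]; abel
    have pu : c.hf p u = 0 := (hY' p).1 pY u uY
    have e1 : c.hf p w0 = - c.hf v u := by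
      have := uni ka hu zS v w0
      rw [zv, zw0, ka.hf_add, ka.hf_add' hu, ka.hf_add' hu, pu] at this
      linear_combination this
    rw [hg, hg v, mulVec_sub, mulVec_sub, mulVec_add, mulVec_smul, mulVec_smul, mulVec_smul,
      mulVec_smul, t1 u uY, zw0, zv, ka.hf_add, ka.hf_add, pu, ka.hf_smul', ka.hf_smul', e1]
    module
  have zgH : (z * g)⁻¹ ∈ c.hat H := (c.hat H).inv_mem ((c.hat H).mul_mem zH gH)
  have kap : ∀ v, ((g * z * g⁻¹ * z⁻¹ : Gl n F) : Mt n F) *ᵥ ((z : Mt n F) *ᵥ ((g : Mt n F) *ᵥ v)) =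
      (g : Mt n F) *ᵥ ((z : Mt n F) *ᵥ v) := by
    intro v
    rw [mul_ap, inv_ap, mul_ap, inv_ap, mul_ap]
  refine ⟨_, kX, ?_, kU, cen_of ka hu hY' (c.St.mul_mem (c.St.mul_mem (c.St.mul_mem gS zS)
    (c.St.inv_mem gS)) (c.St.inv_mem zS)) ?_⟩
  · intro h1
    apply u0
    apply ka.hf_nd
    intro v
    have h2 := kap v
    rw [h1] at h2
    have h3 := diff v
    rw [← h2] at h3
    simp only [Units.val_one, one_mulVec, sub_self] at h3
    rcases smul_eq_zero.1 h3.symm with h4 | h4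
    · rcases mul_eq_zero.1 h4 with h5 | h5
      · exact h5
      · exact absurd (sub_eq_zero.1 h5).symm hl
    · exact absurd h4 u0
  · intro v hv
    have hv' := (fl.st _ zgH).2 v hv
    have e : (z : Mt n F) *ᵥ ((g : Mt n F) *ᵥ ((((z * g)⁻¹ : Gl n F) : Mt n F) *ᵥ v)) = v := by
      rw [← mul_ap z g, ap_inv]
    have h2 := kap ((((z * g)⁻¹ : Gl n F) : Mt n F) *ᵥ v)
    have h3 := diff ((((z * g)⁻¹ : Gl n F) : Mt n F) *ᵥ v)
    rw [(hY' _).1 hv' u uY, zero_mul, zero_smul, sub_eq_zero, e] at h3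
    rw [e] at h2
    rw [h2, h3]

theorem stab_inv {s : Gl n F} {W : Submodule F (Vc n F)} (h : Stab s⁻¹ W) : Stab s W := by
  intro v hv
  let f : W → W := fun x => ⟨((s⁻¹ : Gl n F) : Mt n F) *ᵥ x.1, h x.1 x.2⟩
  have inj : Function.Injective f := by
    intro a b hab
    have h1 : ((s⁻¹ : Gl n F) : Mt n F) *ᵥ a.1 = ((s⁻¹ : Gl n F) : Mt n F) *ᵥ b.1 :=
      congrArg Subtype.val hab
    apply Subtype.ext
    rw [← ap_inv s a.1, h1, ap_inv]
  obtain ⟨x, hx⟩ := Finite.injective_iff_surjective.1 inj ⟨v, hv⟩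
  have h1 : ((s⁻¹ : Gl n F) : Mt n F) *ᵥ x.1 = v := congrArg Subtype.val hx
  rw [← h1, ap_inv]
  exact x.2

theorem par4u (hKA : KAStmt) (hKT : KTStmt) (hKV : KVStmt) (hT : TriUStmt) : Par4UStmt := by
  intro F _ _ _ n c r H Q L hr hu Y Y' s X fl ca z zX z1 zU hc
  have ka := hKA F n c
  have kt := hKT F n c
  have kv := hKV F n c
  have hY' := fl.uni hu
  obtain ⟨c1, c2⟩ := hc
  have sS : s ∈ c.St := ((ka.mem_S s).1 ca.sS).1
  -- a non-isotropic vector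
  have hx : ∃ x, c.hf ((z : Mt n F) *ᵥ x - x) x ≠ 0 := by
    by_contra hn
    push Not at hn
    apply z1
    obtain ⟨l, hl⟩ := ka.fr_ne hu
    have pol : ∀ v w, c.hf ((z : Mt n F) *ᵥ v - v) w + c.hf ((z : Mt n F) *ᵥ w - w) v = 0 := by
      intro v w
      have h := hn (v + w)
      rw [show (z : Mt n F) *ᵥ (v + w) - (v + w) =
        ((z : Mt n F) *ᵥ v - v) + ((z : Mt n F) *ᵥ w - w) by rw [mulVec_add]; abel,
        ka.hf_add, ka.hf_add' hu, ka.hf_add' hu, hn v, hn w] at h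
      linear_combination h
    have zer : ∀ v, (z : Mt n F) *ᵥ v - v = 0 := by
      intro v
      apply ka.hf_nd
      intro w
      apply hf_flip ka hu
      have h1 := pol v w
      have h2 := pol v (l • w)
      rw [ka.hf_smul', mulVec_smul, ← smul_sub, ka.hf_smul] at h2
      have h3 : (l ^ c.q - l) * c.hf ((z : Mt n F) *ᵥ v - v) w = 0 := by
        linear_combination h2 - l * h1
      rcases mul_eq_zero.1 h3 with h4 | h4
      · exact absurd (sub_eq_zero.1 h4) hl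
      · exact h4
    apply Units.ext
    apply Matrix.toLin'.injective
    apply LinearMap.ext
    intro v
    simp only [Matrix.toLin'_apply, Units.val_one, one_mulVec]
    exact sub_eq_zero.1 (zer v)
  obtain ⟨x, hx⟩ := hx
  have xY : x ∉ Y' := by
    intro h
    apply hx
    rw [c1 x h, sub_self]
    have := ka.hf_smul 0 x x
    rwa [zero_smul, zero_mul] at this
  have exy : ∀ v, v ∉ Y' → ∃ y ∈ Y, c.hf v y ≠ 0 := by
    intro v hv
    by_contra hn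
    push Not at hn
    exact hv ((hY' v).2 hn)
  have key : Stab s⁻¹ Y' := by
    intro v' hv'
    by_contra hv
    obtain ⟨v, hvd⟩ : ∃ v, v = ((s⁻¹ : Gl n F) : Mt n F) *ᵥ v' := ⟨_, rfl⟩
    rw [← hvd] at hv
    obtain ⟨y, yY, hvy, hxy⟩ : ∃ y ∈ Y, c.hf v y ≠ 0 ∧ c.hf x y ≠ 0 := by
      obtain ⟨y1, a1, b1⟩ := exy v hv
      obtain ⟨y2, a2, b2⟩ := exy x xY
      by_cases e1 : c.hf v y2 = 0
      · by_cases e2 : c.hf x y1 = 0
        · refine ⟨y1 + y2, Y.add_mem a1 a2, ?_, ?_⟩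
          · rw [ka.hf_add' hu, e1, add_zero]; exact b1
          · rw [ka.hf_add' hu, e2, zero_add]; exact b2
        · exact ⟨y1, a1, b1, e2⟩
      · exact ⟨y2, a2, e1, b2⟩
    obtain ⟨μ, hμ⟩ : ∃ μ : F, μ = c.hf v y / c.hf x y := ⟨_, rfl⟩
    have μ0 : μ ≠ 0 := hμ ▸ div_ne_zero hvy hxy
    have hw : c.hf ((c.hf v y)⁻¹ • (v - μ • x)) y = 0 := by
      rw [ka.hf_smul, hf_sub ka, ka.hf_smul, hμ, div_mul_cancel₀ _ hxy, sub_self, mul_zero]
    obtain ⟨g, gH, θ, hg⟩ := eich ka kv hu fl y _ yY hw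
    have gS : g ∈ c.St := ((ka.mem_hat H g).1 gH).1
    obtain ⟨t, ht⟩ : ∃ t : F, (g : Mt n F) *ᵥ v = μ • x + t • y := by
      refine ⟨c.hf v ((c.hf v y)⁻¹ • (v - μ • x)) - θ * c.hf v y, ?_⟩
      rw [hg, smul_smul, mul_inv_cancel₀ hvy, one_smul]
      module
    have aX : g⁻¹ * z * g⁻¹⁻¹ ∈ X := kt.hatG H X ca.inv g⁻¹ ((c.hat H).inv_mem gH) z zX
    have aQ := ca.cq _ aX
    have tS : s * g⁻¹ ∈ c.St := c.St.mul_mem sS (c.St.inv_mem gS)
    have e0 : s * (g⁻¹ * z * g⁻¹⁻¹) * s⁻¹ = (s * g⁻¹) * z * (s * g⁻¹)⁻¹ := by group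
    rw [e0] at aQ
    have aU : Unip ((s * g⁻¹) * z * (s * g⁻¹)⁻¹) :=
      kt.unip (MulAut.conj (s * g⁻¹)) ⟨_, (kt.conj _ tS).1⟩ z zU
    obtain ⟨-, t2, -⟩ := hT F n c r H Q L hr hu Y Y' fl _ aQ aU
    have h1 := hf_flip ka hu ((hY' v').1 hv' _ (t2 v' hv'))
    have e1 : (((s * g⁻¹)⁻¹ : Gl n F) : Mt n F) *ᵥ v' = μ • x + t • y := by
      rw [_root_.mul_inv_rev, inv_inv, mul_ap, ← hvd, ht]
    have e2 : v' = ((s * g⁻¹ : Gl n F) : Mt n F) *ᵥ (μ • x + t • y) := by rw [← e1, ap_inv]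
    rw [mul_ap, mul_ap, e1] at h1
    rw [e2, ← mulVec_sub, uni ka hu tS] at h1
    have e3 : (z : Mt n F) *ᵥ (μ • x + t • y) - (μ • x + t • y) = μ • ((z : Mt n F) *ᵥ x - x) := by
      rw [mulVec_add, mulVec_smul, mulVec_smul, c1 y (fl.le yY)]
      module
    have e4 : c.hf ((z : Mt n F) *ᵥ x - x) y = 0 := (hY' _).1 (fl.le (c2 x)) y yY
    rw [e3, ka.hf_smul, ka.hf_add' hu, ka.hf_smul', ka.hf_smul', e4, mul_zero, add_zero] at h1
    exact mul_ne_zero μ0 (mul_ne_zero (pow_ne_zero _ μ0) hx) h1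
  apply ca.sH
  refine fl.mem s ca.sS ?_ (stab_inv key)
  intro y hy
  refine dperp ka hu hY' _ (fun w hw => ?_)
  rw [← ap_inv s w, uni ka hu sS]
  exact hf_flip ka hu ((hY' _).1 (key w hw) y hy)

end Cfsg.Agent.H45.SwPar2U
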