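import Cfsg.Agent.H6.TIDefs

/-! Weakly closed TI-subgroups: neighbours with the same large axis. -/

set_option autoImplicit false

namespace Cfsg.Agent.H45.TI

open Cfsg Subgroup Cfsg.Agent.H6.TI
open Cfsg.Agent.H83 (cj)
open scoped Cfsg.Agent.H63 commutatorElement

universe u

variable {G : Type u} [Group G] {Ω : Set (Subgroup G)} {A B B' P Q R : Subgroup G}

theorem ax_le_vv (A B : Subgroup G) : ax A B ≤ vv A B := le_sup_left

theorem ax_le_vv' (A B : Subgroup G) : ax B A ≤ vv A B := le_sup_right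

theorem norm_ax {g : G} (h1 : g ∈ N[A]) (h2 : g ∈ N[B]) : g ∈ N[ax A B] :=
  H83.cj_eq_self_iff.1 (by rw [← ax_cj, H83.cj_eq_self h1, H83.cj_eq_self h2])

theorem cj_of_comm {g : G} {Z : Subgroup G} (h : ∀ x ∈ Z, x * g = g * x) : cj g Z = Z :=
  H83.cj_eq_self (centralizer_le_normalizer _ h)

/-- The elements permuting a set of subgroups. -/
def stab (Γ : Set (Subgroup G)) : Subgroup G where
  carrier := {g | Nor Γ g ∧ Nor Γ g⁻¹}
  one_mem' := ⟨fun P hP => by rwa [H83.cj_one], fun P hP => by rwa [inv_one, H83.cj_one]⟩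
  mul_mem' := fun {a b} ha hb => ⟨fun P hP => by rw [H83.cj_mul]; exact ha.1 _ (hb.1 P hP),
    fun P hP => by rw [mul_inv_rev, H83.cj_mul]; exact hb.2 _ (ha.2 P hP)⟩
  inv_mem' := fun {a} ha => ⟨ha.2, by rw [inv_inv]; exact ha.1⟩

theorem le_stab {Γ : Set (Subgroup G)} {H : Subgroup G} (h : ∀ g ∈ H, Nor Γ g) : H ≤ stab Γ :=
  fun g hg => ⟨h g hg, h _ (H.inv_mem hg)⟩

variable [Finite G] (h : TI Ω) (a : BA Ω)
include a

theorem not_mem (e : Ed Ω A B) {j : G} (hj : j ∈ B) (j1 : j ≠ 1) : j ∉ A := fun c =>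
  e.ne (a.eq _ e.l _ e.r j c hj j1)

theorem ed_of {y : G} (hP : P ∈ Ω) (hQ : Q ∈ Ω) (ne : P ≠ Q) (hy : y ∈ Q) (hn : y ∈ N[P])
    (y1 : y ≠ 1) : Ed Ω P Q :=
  a.symm ⟨hQ, hP, ne.symm, fun c => y1 (mem_bot.1 (c.le (mem_ax.2 ⟨hy, hn⟩)))⟩

theorem brk' (e : Ed Ω A B) {x j : G} (hx : x ∈ A) (hj : j ∈ ax B A) : ⁅x, j⁆ ∈ ax A B :=
  a.brk e x hx j (ax_le_vv' A B hj)

theorem cA' (e : Ed Ω A B) {x j : G} (hx : x ∈ A) (hj : j ∈ ax B A) (j1 : j ≠ 1) :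
    x * j = j * x ↔ x ∈ ax A B := a.cA e x hx j (ax_le_vv' A B hj) (not_mem a e hj.1 j1)

theorem eq_of_card (e : Mn Ω A B) (e' : Mn Ω P Q) {Z : Subgroup G} (h1 : Z ≤ ax P Q)
    (h2 : Nat.card Z = hh A B) : Z = ax P Q :=
  eq_of_le_of_card_ge h1 (h2.trans (a.mnq e e').1).ge

theorem act_comm (e : Ed Ω A B) (e' : Ed Ω A B') (hI : ax A B = ax A B') {j j' : G}
    (hj : j ∈ ax B A) (hj' : j' ∈ ax B' A) : ⁅j, j'⁆ ∈ C[A] := by
  have k : ∀ x ∈ A, j * j' * x * (j * j')⁻¹ = j' * j * x * (j' * j)⁻¹ := fun x hx => by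
    have h1 := brk' a e (A.inv_mem hx) hj
    have h2 := brk' a e' (A.inv_mem hx) hj'
    have e1 : j * x * j⁻¹ = x * ⁅x⁻¹, j⁆ := by rw [commutatorElement_def]; group
    have e2 : j' * x * j'⁻¹ = x * ⁅x⁻¹, j'⁆ := by rw [commutatorElement_def]; group
    have c1 := a.comm _ e.l _ e.r e.ne _ (hI ▸ h2) j hj
    have c2 := a.comm _ e'.l _ e'.r e'.ne _ (hI ▸ h1) j' hj'
    calc _ = j * (j' * x * j'⁻¹) * j⁻¹ := by group
      _ = j * x * j⁻¹ * (j * ⁅x⁻¹, j'⁆ * j⁻¹) := by rw [e2]; group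
      _ = x * (⁅x⁻¹, j'⁆ * ⁅x⁻¹, j⁆) := by
        rw [e1, ← c1, mul_inv_cancel_right, mul_assoc, a.mul_comm _ e.l _ h1.1 _ h2.1]
      _ = j' * x * j'⁻¹ * (j' * ⁅x⁻¹, j⁆ * j'⁻¹) := by
        rw [e2, ← c2, mul_inv_cancel_right, mul_assoc]
      _ = j' * (j * x * j⁻¹) * j'⁻¹ := by rw [e1]; group
      _ = _ := by group
  intro x hx
  have := k _ (H83.conj_mem' le_rfl (mul_mem hj'.2 hj.2) hx)
  rw [commutatorElement_def]
  calc x * (j * j' * j⁻¹ * j'⁻¹)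
      = j' * j * ((j' * j)⁻¹ * x * (j' * j)) * (j' * j)⁻¹ * (j * j' * j⁻¹ * j'⁻¹) := by group
    _ = _ := by rw [← this]; group

include h

theorem eq_one_of_cent (e : Ed Ω A B) {j : G} (hj : j ∈ ax B A) (hc : j ∈ C[A]) : j = 1 := by
  by_contra j1
  exact e.ne (h.wc _ e.l _ e.r fun x hx => ((cA' a e hx hj j1).1 (hc x hx)).2)

theorem exists_not_mem (e : Ed Ω A B) : ∃ x ∈ A, x ∉ ax A B := by
  by_contra! c
  exact e.ne (h.wc _ e.l _ e.r fun x hx => (c x hx).2)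

theorem pp (e : Mn Ω A B) (e' : Mn Ω A B') (hI : ax A B = ax A B') (f : Ed Ω B B') :
    ax B B' = ax B A ∧ Mn Ω B B' := by
  have k : ∀ {B B'}, Mn Ω A B → Mn Ω A B' → ax A B = ax A B' → Ed Ω B B' →
      ax B A ≤ ax B B' ∨ ax B B' ≤ ax B A := fun {B B'} e e' hI f =>
    a.l4 (a.symm e.toEd) f (ax A B ⊔ ax B' B)
      (H83.isPGroup_sup ((a.two _ e.l).to_le ax_le) ((a.two _ f.r).to_le ax_le)
        fun x hx => norm_ax (hI ▸ hx).2 hx.2) (sup_le ax_le_norm ax_le_norm) le_sup_left le_sup_right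
  have m : ∀ {B B'}, Mn Ω A B → Ed Ω B B' → ax B A ≤ ax B B' → Mn Ω B B' ∧ ax B B' = ax B A :=
    fun {B B'} e f c => a.mn_of_le (a.msymm e) f.r f.ne.symm (c.trans ax_le_norm)
  by_cases c : ax B A ≤ ax B B'
  · exact (m e f c).symm
  have h1 := (k e e' hI f).resolve_left c
  rcases k e' e hI.symm (a.symm f) with h2 | h2
  · have h3 := a.msymm (m e' (a.symm f) h2).1
    exact ⟨eq_of_card a h3 (a.msymm e) h1 rfl, h3⟩
  obtain ⟨x, hx, hx'⟩ := SetLike.not_le_iff_exists.1 c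
  obtain ⟨y, hy, y1⟩ := (bot_or_exists_ne_one _).resolve_left (a.symm f).nb
  exact absurd ((cA' a f hx.1 hy y1).1 (commutatorElement_eq_one_iff_mul_comm.1
    (eq_one_of_cent h a e.toEd (h1 (brk' a f hx.1 hy))
      (act_comm a e.toEd e'.toEd hI hx (h2 hy))))) hx'

variable (b : BB Ω)
include b

/-- The common axis fixes the line through two adjacent neighbours. -/
theorem le_line (e : Mn Ω A B) (e' : Mn Ω A B') (hI : ax A B = ax A B') (f : Ed Ω B B')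
    (o : OnL B B' R) : ax A B ≤ N[R] := fun g hg =>
  b.fixL f o g hg.2 (hI ▸ hg).2
    (fun x hx => (pp h a e e' hI f).1 ▸ brk' a (a.symm e.toEd) hx hg)
    fun x hx => (pp h a e' e hI.symm (a.symm f)).1 ▸ brk' a (a.symm e'.toEd) hx (hI ▸ hg)

theorem l6a (e : Mn Ω A B) (e' : Mn Ω A B') (hI : ax A B = ax A B') {y : G} (hy : y ∈ ax B' A)
    (y1 : y ≠ 1) (c : cj y B = B ∨ Ed Ω B (cj y B)) : B' = B ∨ Ed Ω B B' := by
  refine or_iff_not_imp_left.2 fun ne => ?_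
  rcases c with c | c
  · exact ed_of a e.r e'.r (Ne.symm ne) hy.1 (H83.cj_eq_self_iff.1 c) y1
  have e2 := e.cjN h hy.2
  have hI2 : ax A B = ax A (cj y B) := by
    rw [(ax_cjN hy.2 B).1, cj_of_comm fun x hx => a.comm _ e.l _ e'.r e'.ne x (hI ▸ hx) y hy]
  obtain ⟨p, R, o, hp, -, hpB, hyR, hc, -⟩ := b.sw2 B e.r y (h.sq _ e'.r y hy.1) c
  have hR := o.mem h e.r
  have RB : B ≠ R := fun c => hpB (le_normalizer (c ▸ hp))
  have f := (b.lin c (onL_left _ _) o RB).1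
  by_cases r2 : R = B'
  · exact r2 ▸ f
  by_cases r1 : R = A
  · exact absurd (hI ▸ (cA' a e'.toEd (r1 ▸ hp) hy y1).1 hc).2 hpB
  obtain ⟨e3, hI3⟩ := a.mn_of_le e hR r1 (le_line h a b e e2 hI2 c o)
  have h1 := (pp h a e3 e' (hI3.trans hI) (ed_of a hR e'.r r2 hy.1 hyR y1)).1
  have h2 := (pp h a e3 e hI3 (a.symm f)).1
  exact absurd ((h1.trans h2.symm).le ⟨hp, a.cent _ e'.r y hy.1 y1 p hc⟩).2 hpB

omit b h in
theorem ax_eq (e : Mn Ω A B) (e' : Mn Ω A B') {T : Subgroup G} (hT : IsPGroup 2 T)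
    (hN : T ≤ N[A]) (h1 : ax B A ≤ T) (h2 : ax B' A ≤ T) : ax A B = ax A B' :=
  (a.l4 e.toEd e'.toEd T hT hN h1 h2).elim (fun c => eq_of_card a e e' c rfl)
    fun c => (eq_of_card a e' e c rfl).symm

theorem l6 (e : Mn Ω A B) (e' : Mn Ω A B') {T : Subgroup G} (hT : IsPGroup 2 T)
    (hN : T ≤ N[A]) (h1 : ax B A ≤ T) (h2 : ax B' A ≤ T) : B' = B ∨ Ed Ω B B' := by
  let J : Set (Subgroup G) := {P | Mn Ω A P ∧ ax P A ≤ T}
  have hJ : ∀ t ∈ T, ∀ P ∈ J, cj t P ∈ J := fun t ht P hP =>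
    ⟨hP.1.cjN h (hN ht), by rw [(ax_cjN (hN ht) P).2]; exact H83.cj_le_of_mem hP.2 ht⟩
  have hax : ∀ P ∈ J, ∀ Q ∈ J, ax A P = ax A Q := fun P hP Q hQ =>
    ax_eq a hP.1 hQ.1 hT hN hP.2 hQ.2
  obtain ⟨S, hB, hS, hmax⟩ := Finite.exists_le_maximal
    (p := fun S : Set (Subgroup G) => S ⊆ J ∧ S.Pairwise (Ed Ω)) (a := {B})
    ⟨Set.singleton_subset_iff.2 ⟨e, h1⟩, Set.pairwise_singleton _ _⟩
  have key : ∀ P ∈ J, P ∈ S ↔ ax P A ≤ stab S := fun P hP => by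
    refine ⟨fun c => le_stab fun y hy Q hQ => ?_, fun c => ?_⟩
    · rcases eq_or_ne P Q with rfl | ne
      · rwa [H83.cj_eq_self (le_normalizer hy.1)]
      · rwa [H83.cj_eq_self ((pp h a hP.1 (hS.1 hQ).1 (hax _ hP _ (hS.1 hQ))
          (hS.2 c hQ ne)).1.ge hy).2]
    · obtain ⟨y, hy, y1⟩ := (bot_or_exists_ne_one _).resolve_left (a.symm hP.1.toEd).nb
      refine hmax (y := insert P S) ⟨Set.insert_subset hP hS.1, hS.2.insert fun Q hQ ne => ?_⟩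
        (Set.subset_insert _ _) (Set.mem_insert _ _)
      have := (l6a h a b (hS.1 hQ).1 hP.1 (hax _ (hS.1 hQ) _ hP) hy y1
        (or_iff_not_imp_left.2 fun n => hS.2 hQ ((c hy).1 Q hQ) (Ne.symm n))).resolve_left ne
      exact ⟨a.symm this, this⟩
  have hle : T ≤ stab S := by
    by_contra c
    have : Fact (Nat.Prime 2) := ⟨Nat.prime_two⟩
    have := hT.isNilpotent
    have hlt := Group.normalizerCondition_of_isNilpotent ((stab S).subgroupOf T)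
      (lt_top_iff_ne_top.2 fun e => c (subgroupOf_eq_top.1 e))
    refine hlt.not_ge ?_
    have k : ∀ g ∈ normalizer (((stab S).subgroupOf T : Subgroup T) : Set T), Nor S g := by
      intro g hg P hP
      have hP' := hS.1 hP
      refine (key _ (hJ g g.2 P hP')).2 ?_
      rw [(ax_cjN (hN g.2) P).2]
      rintro _ ⟨y, hy, rfl⟩
      exact (mem_normalizer_iff.1 hg ⟨y, hP'.2 hy⟩).1 ((key P hP').1 hP hy)
    exact fun g hg => ⟨k g hg, k _ (inv_mem hg)⟩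
  exact or_iff_not_imp_left.2 fun ne =>
    hS.2 (hB rfl) ((key B' ⟨e', h2⟩).2 (h2.trans hle)) (Ne.symm ne)

theorem cw (e : Mn Ω A B) {y w : G} (hy : y ∈ ax B A) (hw : w ∈ C[A]) (w2 : w * w = 1)
    (hc : w * (y * w * y⁻¹) = y * w * y⁻¹ * w) : ⁅w, y⁆ ∈ ax A B := by
  rcases eq_or_ne y 1 with rfl | y1
  · simp
  have wN : w ∈ N[A] := centralizer_le_normalizer _ hw
  have wi : w⁻¹ = w := inv_eq_of_mul_eq_one_right w2
  have yi : y⁻¹ = y := inv_eq_of_mul_eq_one_right (h.sq _ e.r y hy.1)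
  by_cases c : cj w B = B
  · rw [commutatorElement_eq_one_iff_mul_comm.2
      ((b.tl e.toEd w hw (H83.cj_eq_self_iff.1 c)).1 y (ax_le_vv' A B hy)).symm]
    exact one_mem _
  have e2 := e.cjN h wN
  have hI2 : ax A B = ax A (cj w B) := by
    rw [(ax_cjN wN B).1, cj_of_comm fun x hx => hw x (ax_le hx)]
  have f : Ed Ω B (cj w B) := ed_of a e.r e2.r (Ne.symm c) (H83.conj_mem_cj hy.1)
    (a.cent _ e.r y hy.1 y1 _ (by
      rw [yi] at hc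
      rw [wi, mul_assoc, mul_assoc, ← mul_assoc y, hc]
      simp only [mul_assoc])) fun c => y1 (conj_eq_one_iff.1 c)
  obtain ⟨p, R, o, hp, -, hpB, hwR, hpw, hg⟩ := b.sw2 B e.r w w2 f
  have k : y * (w * p) = w * p * y → ⁅w, y⁆ = ⁅p, y⁆ := fun c => by
    calc ⁅w, y⁆ = w⁻¹ * (y * (w * p)) * p⁻¹ * y⁻¹ := by
          rw [commutatorElement_def, wi]; group
      _ = _ := by rw [c, commutatorElement_def]; group
  by_cases r1 : R = A
  · subst r1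
    rw [k ((b.tl e.toEd _ (mul_mem hw fun x hx => a.mul_comm _ e.l x hx p hp) hg).1 y
      (ax_le_vv' R B hy))]
    exact brk' a e.toEd hp hy
  exfalso
  have hR := o.mem h e.r
  obtain ⟨e3, hI3⟩ := a.mn_of_le e hR r1 (le_line h a b e e2 hI2 f o)
  have f2 := (b.lin f (onL_left _ _) o fun c => hpB (le_normalizer (c ▸ hp))).1
  have h1 := (pp h a e3 e hI3 (a.symm f2)).1
  have h2 := (pp h a e e3 hI3.symm f2).1
  have hy' : y ∈ ax B R := h2.ge hy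
  have h3 := brk' a (a.symm f2) hp hy'
  have hp' : p ∉ ax R B := fun c => hpB c.2
  obtain ⟨j, -, hj⟩ := a.phi (a.symm f2) p hp hp' _ h3
  have h4 : w * p * y * (w * p)⁻¹ = y := by
    refine (hj _ ⟨H83.conj_mem le_rfl (norm_ax hg (mul_mem hwR (le_normalizer hp))) hy', ?_⟩).trans
      (hj _ ⟨hy', rfl⟩).symm
    have c1 := (b.tl e3.toEd w hw hwR).1 _ (ax_le_vv' A R (h1.le h3))
    have c2 := a.mul_comm _ hR _ h3.1 p hp
    calc ⁅p, w * p * y * (w * p)⁻¹⁆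
        = ⁅w * p * p * (w * p)⁻¹, w * p * y * (w * p)⁻¹⁆ := by
          rw [show w * p * p = p * (w * p) by rw [← mul_assoc, hpw], mul_inv_cancel_right]
      _ = w * (p * ⁅p, y⁆) * p⁻¹ * w⁻¹ := by simp only [commutatorElement_def]; group
      _ = _ := by rw [← c2, ← mul_assoc, mul_inv_cancel_right, ← c1, mul_inv_cancel_right]
  have h5 := k (mul_inv_eq_iff_eq_mul.1 h4).symm
  refine hp' ((cA' a (a.symm f2) hp hy' y1).1 (commutatorElement_eq_one_iff_mul_comm.1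
    (eq_one_of_cent h a e3.toEd (h1.le h3) ?_)))
  rw [← h5, show ⁅w, y⁆ = w * (y * w⁻¹ * y⁻¹) by rw [commutatorElement_def]; group]
  exact mul_mem hw (H83.conj_mem (H83.le_norm_cent le_rfl) hy.2 (inv_mem hw))

theorem clq (e : Mn Ω A B) {T : Subgroup G} (hT : IsPGroup 2 T) (hN : T ≤ N[A])
    (h1 : ax B A ≤ T) :
    ∃ Γ, Clq Ω Γ ∧ A ∈ Γ ∧ (∀ P ∈ Γ, ∀ Q ∈ Γ, P ≠ Q → Mn Ω P Q) ∧
      (∀ P ∈ Γ, P ≠ A → ax A P = ax A B) ∧ (∀ t ∈ T, Nor Γ t) ∧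
      (∀ B', Mn Ω A B' → ax B' A ≤ T → B' ∈ Γ) ∧
      ∀ P ∈ Γ, ∀ Q ∈ Γ, ∀ R, OnL P Q R → R ∈ Γ := by
  have hS := H83.isPGroup_sup hT (a.two _ e.l) hN
  have hSN : T ⊔ A ≤ N[A] := sup_le hN le_normalizer
  let Γ : Set (Subgroup G) := {P | P = A ∨ Mn Ω A P ∧ ax P A ≤ T ⊔ A}
  have hB : B ∈ Γ := Or.inr ⟨e, h1.trans le_sup_left⟩
  have k1 : ∀ P ∈ Γ, P ≠ A → ax A P = ax A B := fun P hP ne =>
    ax_eq a (hP.resolve_left ne).1 e hS hSN (hP.resolve_left ne).2 (h1.trans le_sup_left)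
  have k2 : ∀ P ∈ Γ, ∀ Q ∈ Γ, P ≠ Q → Mn Ω P Q ∧ (P ≠ A → ax P Q = ax P A) := by
    intro P hP Q hQ ne
    rcases eq_or_ne P A with rfl | n1
    · exact ⟨(hQ.resolve_left ne.symm).1, fun c => absurd rfl c⟩
    obtain ⟨p1, p2⟩ := hP.resolve_left n1
    rcases eq_or_ne Q A with rfl | n2
    · exact ⟨a.msymm p1, fun _ => rfl⟩
    obtain ⟨q1, q2⟩ := hQ.resolve_left n2
    have := pp h a p1 q1 (ax_eq a p1 q1 hS hSN p2 q2)
      ((l6 h a b p1 q1 hS hSN p2 q2).resolve_left ne.symm)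
    exact ⟨this.2, fun _ => this.1⟩
  have k3 : ∀ P ∈ Γ, ∀ Q ∈ Γ, ∀ R ∈ Γ, P ≠ Q → P ≠ R → ax P Q = ax P R := by
    intro P hP Q hQ R hR n1 n2
    rcases eq_or_ne P A with rfl | n
    · exact (k1 Q hQ n1.symm).trans (k1 R hR n2.symm).symm
    · exact ((k2 P hP Q hQ n1).2 n).trans ((k2 P hP R hR n2).2 n).symm
  have k4 : ∀ P ∈ Γ, ∀ Q ∈ Γ, ∀ R ∈ Γ, P ≠ Q → ax P Q ≤ N[R] := by
    intro P hP Q hQ R hR n1
    rcases eq_or_ne P R with rfl | n2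
    · exact ax_le.trans le_normalizer
    · exact (k3 P hP Q hQ R hR n1 n2).le.trans ax_le_norm
  have hΩ : Γ ⊆ Ω := by
    rintro P (rfl | c)
    exacts [e.l, c.1.r]
  let W : Subgroup G := sSup {X | ∃ P ∈ Γ, ∃ Q ∈ Γ, P ≠ Q ∧ X = ax P Q}
  have w1 : ∀ P ∈ Γ, ∀ Q ∈ Γ, P ≠ Q → ax P Q ≤ W := fun P hP Q hQ ne =>
    le_sSup ⟨P, hP, Q, hQ, ne, rfl⟩
  have w2 : ∀ R ∈ Γ, W ≤ N[R] := fun R hR => sSup_le (by
    rintro _ ⟨P, hP, Q, hQ, ne, rfl⟩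
    exact k4 P hP Q hQ R hR ne)
  have w3 : W ≤ T ⊔ A := sSup_le (by
    rintro _ ⟨P, hP, Q, hQ, ne, rfl⟩
    rcases eq_or_ne P A with rfl | n
    · exact ax_le.trans le_sup_right
    · exact ((k2 P hP Q hQ ne).2 n).le.trans (hP.resolve_left n).2)
  have w4 : ∀ R ∈ Γ, ∀ p ∈ R, cj p W ≤ W := fun R hR p hp => map_le_iff_le_comap.2 (sSup_le (by
    rintro _ ⟨P, hP, Q, hQ, ne, rfl⟩ x hx
    show p * x * p⁻¹ ∈ W
    rcases eq_or_ne P R with rfl | n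
    · rw [a.mul_comm _ (hΩ hP) p hp x hx.1, mul_inv_cancel_right]
      exact w1 P hP Q hQ ne hx
    · rw [show p * x * p⁻¹ = ⁅p, x⁆ * x by rw [commutatorElement_def]; group]
      exact mul_mem (w1 R hR P hP n.symm (brk' a (k2 R hR P hP n.symm).1.toEd hp
        ((k3 P hP Q hQ R hR ne n).le hx))) (w1 P hP Q hQ ne hx)))
  have cl : ∀ P ∈ Γ, ∀ p ∈ P, ∀ Q ∈ Γ, cj p Q ∈ Γ := by
    intro P hP p hp Q hQ
    rcases eq_or_ne Q P with rfl | n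
    · rwa [H83.cj_eq_self (le_normalizer hp)]
    refine or_iff_not_imp_left.2 fun r => ?_
    have h2 : W ≤ N[cj p Q] := by
      rw [← H83.cj_normalizer]
      refine le_trans ?_ (H83.cj_mono p (w2 Q hQ))
      rw [← H83.cj_le_cj_iff (g := p⁻¹), H83.cj_inv_cj]
      exact w4 P hP _ (inv_mem hp)
    obtain ⟨e3, -⟩ := a.mn_of_le e (h.conj _ (hΩ hQ) p) r
      ((w1 A (Or.inl rfl) B hB e.ne).trans h2)
    have h3 : cj p (ax Q P) ≤ W := (H83.cj_mono p (w1 Q hQ P hP n)).trans (w4 P hP p hp)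
    refine ⟨e3, (eq_of_card a (k2 Q hQ P hP n).1 (a.msymm e3) (le_inf (H83.cj_mono p ax_le)
      (h3.trans (w2 A (Or.inl rfl)))) (H83.card_cj _ _)).ge.trans (h3.trans w3)⟩
  refine ⟨Γ, ⟨hΩ, cl, k4⟩, Or.inl rfl, fun P hP Q hQ ne => (k2 P hP Q hQ ne).1, k1, ?_,
    fun B' c1 c2 => Or.inr ⟨c1, c2.trans le_sup_left⟩, ?_⟩
  · rintro t ht P (rfl | c)
    · exact Or.inl (H83.cj_eq_self (hN ht))
    · exact Or.inr ⟨c.1.cjN h (hN ht), by
        rw [(ax_cjN (hN ht) P).2]; exact H83.cj_le_of_mem c.2 (mem_sup_left ht)⟩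
  · rintro P hP Q hQ _ ⟨g, hg, rfl⟩
    exact (sup_le (le_stab (cl P hP)) (le_stab (cl Q hQ)) hg).1 P hP

theorem onL_of (e : Mn Ω A P) (e' : Mn Ω A Q) (hI : ax A P = ax A Q) (f : Ed Ω P Q)
    {Z X Y : Subgroup G} (hZ : Z ≤ ax A P) (hX : X ≤ ax P A) (hY : Y ≤ ax Q A)
    (cZ : Nat.card Z = qq A P) (cX : Nat.card X = qq A P) (cY : Nat.card Y = qq A P)
    (h1 : ∀ x ∈ A, ∀ z ∈ X, ⁅x, z⁆ ∈ Z) (h2 : ∀ x ∈ A, ∀ z ∈ Y, ⁅x, z⁆ ∈ Z)
    (h3 : ∀ x ∈ P, ∀ z ∈ Y, ⁅x, z⁆ ∈ X) : OnL A P Q := by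
  obtain ⟨p1, m⟩ := pp h a e e' hI f
  have p2 := (pp h a e' e hI.symm (a.symm f)).1
  have hq := (a.mnq e m).2
  have part := (b.part f X Y (hX.trans p1.ge) (hY.trans p2.ge) (cX.trans hq) (cY.trans hq) h3).1
  obtain ⟨y, hy, y1⟩ := (bot_or_exists_ne_one Y).resolve_left fun c => by
    have := (a.hq e.toEd).2.1
    rw [← cY, c, card_bot] at this
    omega
  obtain ⟨x, hx, hx'⟩ := exists_not_mem h a e.toEd
  obtain ⟨z, hz⟩ := ((Nat.bijective_iff_injective_and_card (fun z : X => (⟨_, h1 x hx z z.2⟩ : Z))).2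
    ⟨fun z z' c => Subtype.ext ((a.phi e.toEd x hx hx' _ (hZ (h1 x hx z z.2))).unique
      ⟨hX z.2, rfl⟩ ⟨hX z'.2, (congrArg Subtype.val c).symm⟩), cX.trans cZ.symm⟩).2
    ⟨_, h2 x hx y hy⟩
  have hz' : ⁅x, (z : G)⁆ = ⁅x, y⁆ := congrArg Subtype.val hz
  have yP : (z : G) * y ∉ P := fun c =>
    not_mem a f (hY hy).1 y1 ((P.mul_mem_cancel_left (ax_le (hX z.2))).1 c)
  obtain ⟨p, hp, hw⟩ := (part _ (mul_mem_sup z.2 hy)).resolve_left yP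
  have o : OnL P Q (cj p Q) := (b.onB f).cj (mem_sup_left hp)
  have hi := hZ (h2 x hx y hy)
  have c : x * (z * y) = z * y * x := by
    refine commutatorElement_eq_one_iff_mul_comm.1 ?_
    calc ⁅x, z * y⁆ = ⁅x, (z : G)⁆ * (z * ⁅x, y⁆) * (z : G)⁻¹ := by
          simp only [commutatorElement_def]; group
      _ = 1 := by
        rw [hz', ← a.comm _ e.l _ e.r e.ne _ hi z (hX z.2), ← mul_assoc, h.sq _ e.l _ hi.1]; simp
  have hR := o.mem h e.r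
  have r : cj p Q = A := by
    by_contra r
    exact hx' ((a.mn_of_le e hR r (le_line h a b e e' hI f o)).2.le
      ⟨hx, a.cent _ hR _ hw (fun c => yP (c ▸ one_mem _)) x c⟩)
  exact ⟨p⁻¹, mem_sup_right (inv_mem hp), by rw [← r, H83.cj_inv_cj]⟩

omit h b a [Finite G] in
theorem br_le {Z : Subgroup G} {g : G} (hg : g ∈ N[Z]) : br Z g ≤ Z :=
  H83.comm_le_left (zpowers_le.2 hg)

theorem fix (e : Mn Ω A P) (e' : Mn Ω A Q) (hI : ax A P = ax A Q) (f : Ed Ω P Q) {g : G}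
    (gA : g ∈ N[A]) (gP : g ∈ N[P]) (gQ : g ∈ N[Q]) (g2 : Is2 g) (hg : ∀ x ∈ A, ⁅x, g⁆ ∈ ax A P)
    (hi : C1[g].relIndex (ax A P) = qq A P) : Orb A P Q := by
  have p1 := (pp h a e e' hI f).1
  have p2 := (pp h a e' e hI.symm (a.symm f)).1
  have cZ := (a.card_br (ax A P) g (fun x hx y hy => a.mul_comm _ e.l x hx.1 y hy.1)
    (norm_ax gA gP)).trans hi
  obtain ⟨-, u1, u2⟩ := b.eqv e.toEd g gA gP hg
  obtain ⟨-, v1, v2⟩ := b.eqv e'.toEd g gA gQ (hI ▸ hg)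
  obtain ⟨-, w1, -⟩ := b.eqv f g gP gQ (p1 ▸ b.two e.toEd g gA gP g2 hg)
  rw [← hI] at v1 v2
  rw [p1, p2] at w1
  exact (b.fix0 e.toEd g gA gP g2 hg hi Q (onL_of h a b e e' hI f (br_le (norm_ax gA gP))
    (br_le (norm_ax gP gA)) (br_le (norm_ax gQ gA)) cZ (u2.trans cZ) (v2.trans cZ) u1 v1
    w1)).resolve_left e'.ne.symm

theorem gh (e : Mn Ω A P) (e' : Mn Ω A Q) (hI : ax A P = ax A Q) (f : Ed Ω P Q)
    (hq : hh A P = qq A P) : Orb A P Q := by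
  have p1 := (pp h a e e' hI f).1
  have p2 := (pp h a e' e hI.symm (a.symm f)).1
  have c1 : Nat.card (ax P A) = qq A P := (a.mnq (a.msymm e) e).1.trans hq
  have c2 : Nat.card (ax Q A) = qq A P := (a.mnq (a.msymm e') e).1.trans hq
  exact ((b.part e.toEd _ _ le_rfl le_rfl hq c1 fun x hx z hz => brk' a e.toEd hx hz).2
    (fun x hx z hz => brk' a (a.symm e.toEd) hx hz) Q
    (onL_of h a b e e' hI f le_rfl le_rfl le_rfl hq c1 c2 (fun x hx z hz => brk' a e.toEd hx hz)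
      (fun x hx z hz => hI ▸ brk' a e'.toEd hx hz)
      fun x hx z hz => p1 ▸ brk' a f hx (p2 ▸ hz))).resolve_left e'.ne.symm

omit h a b in
theorem l6Stmt : L6Stmt.{u} := fun _ h a b =>
  { pp := pp h a
    l6a := fun e e' hI _ hy y1 c => l6a h a b e e' hI hy y1 c
    l6 := fun e e' _ hT hN h1 h2 => ⟨ax_eq a e e' hT hN h1 h2, l6 h a b e e' hT hN h1 h2⟩
    cw := fun e _ hy _ hw w2 hc => cw h a b e hy hw w2 hc
    clq := fun e _ hT hN h1 => clq h a b e hT hN h1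
    fix := fun e e' hI f _ gA gP gQ g2 hg hi => fix h a b e e' hI f gA gP gQ g2 hg hi
    gh := gh h a b }

end Cfsg.Agent.H45.TI
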