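import Cfsg.Agent.H6.TIDefs
import Cfsg.Agent.H85.WeakClosed
import Cfsg.Agent.H83.Cores
import Cfsg.Agent.H55.Basic
import Cfsg.Agent.H3.Cores
import Cfsg.Agent.H52.FStar
import Cfsg.Prelude.Def_AlmostLie

/-!
Project TI, piece R2978: an abelian large `2`-subgroup.
-/

set_option autoImplicit false
set_option linter.unusedSectionVars false

namespace Cfsg.Agent.H45.TIR

open Cfsg Subgroup Cfsg.Agent.H6.TI
open Cfsg.Agent.H83 (cj)
open scoped Cfsg.Agent.H63 commutatorElement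

universe u

/-- Every involution of `A₇` commutes with an element of order `3`. -/
theorem alt7 (σ : alternatingGroup (Fin 7)) (h2 : σ * σ = 1) :
    ∃ τ : alternatingGroup (Fin 7), orderOf τ = 3 ∧ τ * σ = σ * τ := by
  classical
  have h4 : (σ : Equiv.Perm (Fin 7)).support.card ≤ 4 := by
    have h3 : (σ : Equiv.Perm (Fin 7)) ^ 2 = 1 := by
      rw [pow_two]; exact congrArg Subtype.val h2
    have : Fact (Nat.Prime 2) := ⟨Nat.prime_two⟩
    have h5 := Equiv.Perm.cycleType_of_pow_prime_eq_one h3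
    have h6 := Equiv.Perm.sum_cycleType (σ : Equiv.Perm (Fin 7))
    have h7 := Equiv.Perm.sign_of_cycleType (σ : Equiv.Perm (Fin 7))
    have h8 : (σ : Equiv.Perm (Fin 7)).support.card ≤ 7 := by
      simpa using Finset.card_le_univ (σ : Equiv.Perm (Fin 7)).support
    rw [Equiv.Perm.mem_alternatingGroup.1 σ.2] at h7
    generalize Multiset.card (σ : Equiv.Perm (Fin 7)).cycleType = n at h5 h7
    rw [h5, Multiset.sum_replicate, smul_eq_mul] at h6 h7
    have h9 : n ≤ 3 := by omega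
    have : n ≠ 3 := by
      rintro rfl
      revert h7; decide
    omega
  have h5 : 3 ≤ (σ : Equiv.Perm (Fin 7)).supportᶜ.card := by
    rw [Finset.card_compl, Fintype.card_fin]; omega
  obtain ⟨t, ht, h3⟩ := Finset.exists_subset_card_eq h5
  obtain ⟨a, b, c, ab, ac, bc, rfl⟩ := Finset.card_eq_three.1 h3
  have h6 := Equiv.Perm.isThreeCycle_swap_mul_swap_same ab ac bc
  refine ⟨⟨_, h6.mem_alternatingGroup⟩, ?_, Subtype.ext ?_⟩
  · rw [← orderOf_coe]; exact h6.orderOf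
  · have h7 : ∀ x y : Fin 7, x ∈ ({a, b, c} : Finset (Fin 7)) → y ∈ ({a, b, c} : Finset (Fin 7)) →
        Commute (Equiv.swap x y) (σ : Equiv.Perm (Fin 7)) := fun x y hx hy => by
      have hx' := Equiv.Perm.notMem_support.1 (Finset.mem_compl.1 (ht hx))
      have hy' := Equiv.Perm.notMem_support.1 (Finset.mem_compl.1 (ht hy))
      have := Equiv.mul_swap_eq_swap_mul (σ : Equiv.Perm (Fin 7)) x y
      rw [hx', hy'] at this
      exact this.symm
    exact ((h7 a b (by simp) (by simp)).mul_left (h7 a c (by simp) (by simp))).eq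

variable {G : Type u} [Group G]

/-- An element of order `3` fixing an involution of a group of order `4` centralizes it. -/
theorem three_cent {A : Subgroup G} (h4 : Nat.card A = 4) {a y : G} (ha : a ∈ A) (a1 : a ≠ 1)
    (hy : y ∈ N[A]) (h3 : orderOf y = 3) (hc : y * a = a * y) : y ∈ C[A] := by
  classical
  intro b hb
  by_contra hne
  have y3 : y * y * y = 1 := by rw [← pow_three', ← h3, pow_orderOf_eq_one]
  have m1 : y * b * y⁻¹ ∈ A := H83.conj_mem le_rfl hy hb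
  have m2 : y * (y * b * y⁻¹) * y⁻¹ ∈ A := H83.conj_mem le_rfl hy m1
  have f : ∀ x : G, y * x * y⁻¹ = x ↔ x * y = y * x := fun x => by
    rw [mul_inv_eq_iff_eq_mul, eq_comm]
  have inj : ∀ x z : G, y * x * y⁻¹ = y * z * y⁻¹ → x = z := fun x z e => by simpa using e
  have fa : y * a * y⁻¹ = a := (f a).2 hc.symm
  have f1 : y * 1 * y⁻¹ = 1 := by simp
  have n1 : ∀ x : G, y * x * y⁻¹ = x → x ≠ b ∧ x ≠ y * b * y⁻¹ ∧ x ≠ y * (y * b * y⁻¹) * y⁻¹ :=
    fun x hx => by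
      have e0 : x ≠ b := fun e => hne ((f b).1 (e ▸ hx))
      have e1 : x ≠ y * b * y⁻¹ := fun e => e0 (inj _ _ (hx.trans e))
      exact ⟨e0, e1, fun e => e1 (inj _ _ (hx.trans e))⟩
  have n2 : b ≠ y * b * y⁻¹ := fun e => hne ((f b).1 e.symm)
  have n3 : y * b * y⁻¹ ≠ y * (y * b * y⁻¹) * y⁻¹ := fun e => n2 (inj _ _ e)
  have n4 : b ≠ y * (y * b * y⁻¹) * y⁻¹ := fun e => n2 (by
    have e1 : y * (y * (y * b * y⁻¹) * y⁻¹) * y⁻¹ = (y * y * y) * b * (y * y * y)⁻¹ := by group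
    rw [y3, one_mul, inv_one, mul_one, ← e] at e1
    exact e1.symm)
  have hfin : Finite A := Nat.finite_of_card_ne_zero (by omega)
  have h5 : ({1, a, b, y * b * y⁻¹, y * (y * b * y⁻¹) * y⁻¹} : Set G).ncard ≤ (A : Set G).ncard :=
    Set.ncard_le_ncard (by
      rintro x (rfl | rfl | rfl | rfl | rfl)
      exacts [A.one_mem, ha, hb, m1, m2]) (Set.toFinite _)
  obtain ⟨p1, p2, p3⟩ := n1 1 f1
  obtain ⟨q1, q2, q3⟩ := n1 a fa
  rw [Set.ncard_insert_of_notMem (by simp only [Set.mem_insert_iff, Set.mem_singleton_iff]; tauto),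
    Set.ncard_insert_of_notMem (by simp only [Set.mem_insert_iff, Set.mem_singleton_iff]; tauto),
    Set.ncard_insert_of_notMem (by simp only [Set.mem_insert_iff, Set.mem_singleton_iff]; tauto),
    Set.ncard_pair n3] at h5
  have : (A : Set G).ncard = 4 := h4
  omega

section Restrict

variable {Ω : Set (Subgroup G)} {H : Subgroup G}

theorem norm_sub {P Q : Subgroup G} (hP : P ≤ H) (hQ : Q ≤ H) :
    P.subgroupOf H ≤ N[Q.subgroupOf H] ↔ P ≤ N[Q] := by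
  rw [← subgroupOf_normalizer_eq hQ]
  exact ⟨fun h x hx => h (show (⟨x, hP hx⟩ : H) ∈ P.subgroupOf H from hx), fun h x hx => h hx⟩

theorem sub_inj {P Q : Subgroup G} (hP : P ≤ H) (hQ : Q ≤ H)
    (h : P.subgroupOf H = Q.subgroupOf H) : P = Q := by
  rw [← map_subgroupOf_eq_of_le hP, h, map_subgroupOf_eq_of_le hQ]

/-- The class of points, seen inside a subgroup containing all points. -/
theorem ti_sub (h : TI Ω) (ba : BA Ω) (hH : ∀ P ∈ Ω, P ≤ H) :
    TI ((fun P : Subgroup G => P.subgroupOf H) '' Ω) where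
  sq := by
    rintro _ ⟨P, hP, rfl⟩ a ha
    exact Subtype.ext (h.sq P hP a ha)
  conj := by
    rintro _ ⟨P, hP, rfl⟩ g
    exact ⟨_, h.conj P hP g, (H85.cj_subgroupOf g P).symm⟩
  trans := by
    rintro _ ⟨P, hP, rfl⟩ _ ⟨Q, hQ, rfl⟩
    obtain ⟨g, hg, rfl⟩ := ba.conj_in P hP Q hQ H (hH P hP) (hH Q hQ)
    exact ⟨⟨g, hg⟩, H85.cj_subgroupOf ⟨g, hg⟩ P⟩
  ti := by
    rintro _ ⟨P, hP, rfl⟩ _ ⟨Q, hQ, rfl⟩ hne
    have := h.ti P hP Q hQ fun e => hne (by rw [e])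
    refine (eq_bot_iff_forall _).2 fun x hx => Subtype.ext ?_
    exact (eq_bot_iff_forall _).1 this x hx
  wc := by
    rintro _ ⟨P, hP, rfl⟩ _ ⟨Q, hQ, rfl⟩ hle
    rw [h.wc P hP Q hQ ((norm_sub (hH P hP) (hH Q hQ)).1 hle)]

theorem ed_sub (hH : ∀ P ∈ Ω, P ≤ H) {A B : Subgroup G} (e : Ed Ω A B) :
    Ed ((fun P : Subgroup G => P.subgroupOf H) '' Ω) (A.subgroupOf H) (B.subgroupOf H) := by
  refine ⟨⟨A, e.l, rfl⟩, ⟨B, e.r, rfl⟩, fun a => e.ne (sub_inj (hH A e.l) (hH B e.r) a), fun a => ?_⟩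
  refine e.nb ((eq_bot_iff_forall _).2 fun x hx => ?_)
  refine congrArg Subtype.val ((eq_bot_iff_forall _).1 a ⟨x, hH A e.l hx.1⟩ ⟨hx.1, ?_⟩)
  rw [← subgroupOf_normalizer_eq (hH B e.r)]
  exact hx.2

theorem gen_sub : sSup ((fun P : Subgroup G => P.subgroupOf (sSup Ω)) '' Ω) = ⊤ := by
  apply map_injective (sSup Ω).subtype_injective
  rw [← MonoidHom.range_eq_map, range_subtype]
  refine le_antisymm (map_subtype_le _) (sSup_le fun P hP => ?_)
  rw [← map_subgroupOf_eq_of_le (le_sSup hP : P ≤ sSup Ω)]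
  exact map_mono (le_sSup ⟨P, hP, rfl⟩)

theorem normal_sSup (h : TI Ω) : (sSup Ω).Normal := by
  refine ⟨fun n hn g => ?_⟩
  have : sSup Ω ≤ cj g⁻¹ (sSup Ω) := sSup_le fun P hP =>
    H83.cj_le_iff.1 (le_sSup (h.conj P hP g))
  simpa using H83.mem_cj.1 (this hn)

end Restrict

/-- The setting. -/
structure Cx (Q A : Subgroup G) : Prop where
  large : IsLarge Q
  ab : ∀ a ∈ Q, ∀ b ∈ Q, a * b = b * a
  two : IsPGroup 2 Q
  core : ∀ T : Subgroup G, IsPGroup 2 T → T ≤ N[Q] → N[Q] ≤ N[T] → T ≤ Q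
  ne : Q ≠ ⊥
  mem : ∀ x, x ∈ A ↔ x ∈ Q ∧ x * x = 1

namespace Cx

variable {Q A : Subgroup G}

theorem conj (c : Cx Q A) (g : G) : Cx (cj g Q) (cj g A) where
  large := H85.isLarge_cj c.large g
  ab := by
    rintro _ ⟨a, ha, rfl⟩ _ ⟨b, hb, rfl⟩
    rw [← map_mul, c.ab a ha b hb, map_mul]
  two := H83.isPGroup_cj c.two g
  core := fun T h1 h2 h3 => by
    rw [← H83.cj_cj_inv g T, H83.cj_le_cj_iff]
    refine c.core _ (H83.isPGroup_cj h1 _) ?_ ?_
    · rw [← H83.cj_le_cj_iff (g := g), H83.cj_cj_inv, H83.cj_normalizer]; exact h2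
    · rw [← H83.cj_normalizer, ← H83.cj_le_iff, H83.cj_normalizer]; exact h3
  ne := fun e => c.ne (H83.cj_eq_bot_iff.1 e)
  mem := fun x => by
    rw [H83.mem_cj, H83.mem_cj, c.mem]
    refine and_congr_right fun _ => ?_
    have : g⁻¹ * x * g * (g⁻¹ * x * g) = g⁻¹ * (x * x) * g := by group
    rw [this, mul_assoc, inv_mul_eq_one, eq_comm, mul_eq_right]

variable (c : Cx Q A)
include c

theorem le : A ≤ Q := fun x hx => ((c.mem x).1 hx).1

theorem nle {U : Subgroup G} (hU : U ≤ Q) (h0 : U ≠ ⊥) : N[U] ≤ N[Q] :=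
  c.large.2 U (fun x hx y hy => c.ab y hy x (hU hx)) h0

theorem cent {a g : G} (ha : a ∈ Q) (a1 : a ≠ 1) (hg : g * a = a * g) : g ∈ N[Q] := by
  refine c.nle (zpowers_le.2 ha) (by rwa [Ne, zpowers_eq_bot]) (centralizer_le_normalizer _ ?_)
  rintro _ ⟨k, rfl⟩
  exact ((show Commute g a from hg).zpow_right k).eq.symm

theorem normA : N[Q] ≤ N[A] := fun g hg => by
  rw [← H83.cj_eq_self_iff]
  ext x
  rw [(c.conj g).mem, H83.cj_eq_self hg, c.mem]

variable [Finite G]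

theorem inv {U : Subgroup G} (hU : U ≤ Q) (h0 : U ≠ ⊥) : ∃ z ∈ U, z ∈ A ∧ z ≠ 1 := by
  obtain ⟨x, hx, x1⟩ := (bot_or_exists_ne_one U).resolve_left h0
  obtain ⟨k, hk⟩ := H83.isPGroup_iff.1 c.two x (hU hx)
  induction k generalizing x with
  | zero => exact (x1 (by simpa using hk)).elim
  | succ k ih =>
    by_cases e : x * x = 1
    · exact ⟨x, hx, (c.mem x).2 ⟨hU hx, e⟩, x1⟩
    · exact ih (x * x) (U.mul_mem hx hx) e (by rw [← pow_two, ← pow_mul, ← pow_succ', hk])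

theorem neA : A ≠ ⊥ := fun e => by
  obtain ⟨z, -, h1, h2⟩ := c.inv le_rfl c.ne
  exact h2 (mem_bot.1 (e ▸ h1))

theorem normQ : N[A] ≤ N[Q] := c.nle c.le c.neA

theorem wc : H85.WC 2 Q :=
  have : Fact (Nat.Prime 2) := ⟨Nat.prime_two⟩
  H85.wc_of_isLarge c.large c.ne

theorem ti {g x : G} (h1 : x ∈ Q) (h2 : x ∈ cj g Q) (x1 : x ≠ 1) : g ∈ N[Q] :=
  H83.cj_eq_self_iff.1 (c.wc.eq_of_le_normalizer c.two fun y hy =>
    c.cent h1 x1 ((c.conj g).ab y hy x h2))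

/-- An element of odd order centralizing `Ω₁(Q)` centralizes `Q`. -/
theorem odd {y : G} (hy : y ∈ C[A]) (ho : Odd (orderOf y)) : y ∈ C[Q] := by
  have hn : y ∈ N[Q] := c.normQ (centralizer_le_normalizer _ hy)
  intro x hx
  obtain ⟨k, hk⟩ := H83.isPGroup_iff.1 c.two x hx
  induction k generalizing x with
  | zero => rw [show x = 1 by simpa using hk]; simp
  | succ k ih =>
    have h2 := ih (x * x) (Q.mul_mem hx hx) (by rw [← pow_two, ← pow_mul, ← pow_succ', hk])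
    have h3 : y * x * y⁻¹ ∈ Q := H83.conj_mem le_rfl hn hx
    have h4 : y * x * y⁻¹ * x⁻¹ * (y * x * y⁻¹ * x⁻¹) = 1 := by
      have e1 := c.ab _ (Q.inv_mem hx) _ h3
      calc _ = y * x * y⁻¹ * (x⁻¹ * (y * x * y⁻¹)) * x⁻¹ := by group
        _ = y * (x * x) * y⁻¹ * (x * x)⁻¹ := by rw [e1]; group
        _ = 1 := by rw [← h2]; group
    set d := y * x * y⁻¹ * x⁻¹ with hd
    have h5 : d * y = y * d := hy d ((c.mem d).2 ⟨Q.mul_mem h3 (Q.inv_mem hx), h4⟩)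
    have h6 : ∀ n : ℕ, y ^ n * x = d ^ n * x * y ^ n := fun n => by
      induction n with
      | zero => simp
      | succ n ih =>
        have e1 : y * x = d * x * y := by rw [hd]; group
        have e2 : y * d ^ n = d ^ n * y := ((show Commute d y from h5).pow_left n).eq.symm
        rw [pow_succ', mul_assoc, ih, ← mul_assoc, ← mul_assoc, e2, mul_assoc _ y, e1, pow_succ d]
        group
    have h7 := h6 (orderOf y)
    obtain ⟨m, hm⟩ := ho
    rw [pow_orderOf_eq_one, hm, pow_succ, pow_mul, pow_two, h4] at h7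
    have h8 : d = 1 := by simpa using h7
    rw [hd, mul_inv_eq_one, mul_inv_eq_iff_eq_mul] at h8
    exact h8.symm

theorem centA : C[A] ≤ Q := by
  have : Fact (Nat.Prime 2) := ⟨Nat.prime_two⟩
  refine c.core _ (H83.isPGroup_of_coprime_eq_one fun y hy ho => ?_)
    ((centralizer_le_normalizer _).trans c.normQ) (H83.le_norm_cent c.normA)
  exact H83.eq_one_of_mem_pgroup c.two (c.large.1 (c.odd hy (Nat.coprime_two_right.1 ho))) ho

/-- `Ω₁(Q)` is weakly closed in its normalizer. -/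
theorem wcA {g : G} (h : cj g A ≤ N[A]) : g ∈ N[Q] := by
  by_contra hg
  have c' := c.conj g
  have h1 : ∀ x ∈ Q, x ∈ cj g Q → x = 1 := fun x a b => by_contra fun e => hg (c.ti a b e)
  have h2 : ∀ b ∈ cj g A, b ∈ N[Q] := fun b hb => c.normQ (h hb)
  have h3 : ∀ x ∈ Q, x ∈ N[cj g Q] → ∀ b ∈ cj g A, x * b = b * x := fun x hx hn b hb => by
    have := h1 (x * b * x⁻¹ * b⁻¹)
      (by rw [mul_assoc, mul_assoc, ← mul_assoc b]
          exact Q.mul_mem hx (H83.conj_mem le_rfl (h2 b hb) (Q.inv_mem hx)))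
      (mul_mem (H83.conj_mem le_rfl hn (c'.le hb)) (inv_mem (c'.le hb)))
    rwa [mul_inv_eq_one, mul_inv_eq_iff_eq_mul] at this
  obtain ⟨x, hx, xn, x2⟩ : ∃ x ∈ Q, x ∉ N[cj g Q] ∧ x * x ∈ N[cj g Q] := by
    obtain ⟨x, hx, xn⟩ : ∃ x ∈ Q, x ∉ N[cj g Q] := by
      by_contra hn
      push Not at hn
      have := c'.wc.eq_of_le_normalizer c'.two (g := g⁻¹) (by
        change cj g⁻¹ (cj g Q) ≤ _
        rw [H83.cj_inv_cj]; exact hn)
      change cj g⁻¹ (cj g Q) = cj g Q at this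
      rw [H83.cj_inv_cj] at this
      exact hg (H83.cj_eq_self_iff.1 this.symm)
    obtain ⟨k, hk⟩ := H83.isPGroup_iff.1 c.two x hx
    induction k generalizing x with
    | zero => exact (xn (by rw [show x = 1 by simpa using hk]; exact one_mem _)).elim
    | succ k ih =>
      by_cases e : x * x ∈ N[cj g Q]
      · exact ⟨x, hx, xn, e⟩
      · exact ih (x * x) (Q.mul_mem hx hx) e (by rw [← pow_two, ← pow_mul, ← pow_succ', hk])
  have h4 : ∀ b ∈ cj g A, x * (b * x⁻¹ * b⁻¹) ∈ A ⊓ N[cj g Q] := fun b hb => by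
    have m1 : b * x⁻¹ * b⁻¹ ∈ Q := H83.conj_mem le_rfl (h2 b hb) (Q.inv_mem hx)
    have e1 := c.ab _ hx _ m1
    have e2 := h3 _ (Q.mul_mem hx hx) x2 b hb
    have e3 : x * (b * x⁻¹ * b⁻¹) * (x * (b * x⁻¹ * b⁻¹)) = 1 := by
      calc _ = x * ((b * x⁻¹ * b⁻¹) * x) * (b * x⁻¹ * b⁻¹) := by group
        _ = (x * x * b) * (x * x)⁻¹ * b⁻¹ := by rw [← e1]; group
        _ = 1 := by rw [e2]; group
    refine ⟨(c.mem _).2 ⟨Q.mul_mem hx m1, e3⟩, ?_⟩
    by_cases b1 : b = 1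
    · rw [b1]; simpa using one_mem _
    refine c'.cent (c'.le hb) b1 ?_
    have bi : b⁻¹ = b := inv_eq_of_mul_eq_one_right ((c'.mem b).1 hb).2
    rw [← inv_eq_of_mul_eq_one_right e3]
    calc (x * (b * x⁻¹ * b⁻¹))⁻¹ * b = b * (x * (b⁻¹ * x⁻¹ * b)) := by group
      _ = b * (x * (b * x⁻¹ * b⁻¹)) := by rw [bi]
      _ = _ := by rw [inv_eq_of_mul_eq_one_right e3]
  have h5 : Nat.card A ≤ Nat.card ↥(A ⊓ N[cj g Q]) := by
    rw [← H83.card_cj g A]
    refine Nat.card_le_card_of_injective (fun b => ⟨_, h4 b b.2⟩) fun b b' e => ?_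
    have e1 : b * x⁻¹ * (b : G)⁻¹ = b' * x⁻¹ * (b' : G)⁻¹ := mul_left_cancel (congrArg Subtype.val e)
    by_contra hne
    refine xn (c'.cent (a := (b' : G)⁻¹ * b) (c'.le (mul_mem (inv_mem b'.2) b.2))
      (fun e => hne (Subtype.ext (inv_mul_eq_one.1 e).symm)) ?_)
    calc x * ((b' : G)⁻¹ * b) = x * (b' : G)⁻¹ * (b * x⁻¹ * (b : G)⁻¹) * b * x := by group
      _ = _ := by rw [e1]; group
  have h6 : A ⊓ N[cj g Q] = A := eq_of_le_of_card_ge inf_le_left h5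
  obtain ⟨z, -, z1, z2⟩ := c'.inv le_rfl c'.ne
  exact z2 (h1 z (c.centA fun a ha => h3 a (c.le ha) (h6.ge ha).2 z z1) (c'.le z1))

theorem ti_class : TI {P | ∃ g : G, cj g A = P} where
  sq := by
    rintro _ ⟨g, rfl⟩ a ha
    exact (((c.conj g).mem a).1 ha).2
  conj := by
    rintro _ ⟨g, rfl⟩ k
    exact ⟨k * g, H83.cj_mul k g A⟩
  trans := by
    rintro _ ⟨g, rfl⟩ _ ⟨k, rfl⟩
    exact ⟨k * g⁻¹, by rw [H83.cj_mul, H83.cj_inv_cj]⟩
  ti := by
    rintro _ ⟨g, rfl⟩ _ ⟨k, rfl⟩ hne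
    refine (eq_bot_iff_forall _).2 fun x hx => by_contra fun x1 => hne ?_
    have c' := c.conj g
    have := c'.normA (c'.ti (g := k * g⁻¹) (c'.le hx.1)
      (by rw [H83.cj_mul, H83.cj_inv_cj]; exact (c.conj k).le hx.2) x1)
    rw [← H83.cj_eq_self_iff, H83.cj_mul, H83.cj_inv_cj] at this
    exact this.symm
  wc := by
    rintro _ ⟨g, rfl⟩ _ ⟨k, rfl⟩ hle
    have c' := c.conj k
    have := c'.normA (c'.wcA (g := g * k⁻¹) (by rw [H83.cj_mul, H83.cj_inv_cj]; exact hle))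
    rwa [← H83.cj_eq_self_iff, H83.cj_mul, H83.cj_inv_cj] at this

theorem normal_bot {g : G} (hg : g ∉ N[Q]) {T : Subgroup G} (hT : T.Normal) (h : T ≤ Q) : T = ⊥ :=
  by_contra fun e => hg (c.nle h e (le_normalizer_of_normal (mem_top g)))

theorem two_bot {g : G} (hg : g ∉ N[Q]) : pCore 2 G = ⊥ :=
  c.normal_bot hg inferInstance (c.core _ (H3.pCore_isPGroup 2 G)
    (le_sup_left.trans (c.wc.le_normalizer
      ((H3.pCore_isPGroup 2 G).to_sup_of_normal_left c.two) le_sup_right)) le_normalizer_of_normal)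

theorem odd_bot {g : G} (hg : g ∉ N[Q]) (h4 : 4 ≤ Nat.card A) : pPrimeCore 2 G = ⊥ := by
  have : Fact (Nat.Prime 2) := ⟨Nat.prime_two⟩
  have ho := H3.pPrimeCore_coprime 2 G
  have h1 : pPrimeCore 2 G ≤ N[Q] := H55.gen_elt (p := 2) (A := A)
    ⟨⟨⟨fun a b => Subtype.ext (c.ab a (c.le a.2) b (c.le b.2))⟩⟩,
      fun a ha => by rw [pow_two, ((c.mem a).1 ha).2]⟩ h4
    (Nat.coprime_two_right.1 ho).not_two_dvd_nat le_normalizer_of_normal
    fun a ha h1 g hg => c.cent (c.le ha) h1 (mem_centralizer_singleton_iff.1 hg.2)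
  refine c.normal_bot hg inferInstance fun y hy => c.large.1 fun x hx => ?_
  have h2 : x * y * x⁻¹ * y⁻¹ ∈ pPrimeCore 2 G :=
    mul_mem ((inferInstance : (pPrimeCore 2 G).Normal).conj_mem y hy x) (inv_mem hy)
  have := H83.eq_one_of_mem_pgroup c.two (x := x * y * x⁻¹ * y⁻¹)
    (by rw [mul_assoc, mul_assoc, ← mul_assoc y]
        exact Q.mul_mem hx (H83.conj_mem le_rfl (h1 hy) (Q.inv_mem hx)))
    (H83.coprime_orderOf_of_mem ho h2)
  rwa [mul_inv_eq_one, mul_inv_eq_iff_eq_mul] at this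

end Cx

/-- An abelian normal subgroup of a normal subgroup is trivial if both cores are. -/
theorem ab_bot [Finite G] (h2 : pCore 2 G = ⊥) (ho : pPrimeCore 2 G = ⊥) {H : Subgroup G}
    (hH : H.Normal) (N : Subgroup H) (hN : N.Normal) (hc : ∀ x ∈ N, ∀ y ∈ N, x * y = y * x) :
    N = ⊥ := by
  have : Fact (Nat.Prime 2) := ⟨Nat.prime_two⟩
  have h1 : (N.map H.subtype).IsSubnormal := IsSubnormal.step _ H (map_subtype_le N)
    hH.isSubnormal (by rw [subgroupOf, comap_map_eq_self_of_injective H.subtype_injective]; exact hN)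
  have h3 : ∀ x ∈ N.map H.subtype, (zpowers x).IsSubnormal := fun x hx =>
    IsSubnormal.step _ _ (zpowers_le.2 hx) h1 ((normal_subgroupOf_iff_le_normalizer
      (zpowers_le.2 hx)).2 (le_trans (by
        obtain ⟨x, hx, rfl⟩ := hx
        rintro _ ⟨y, hy, rfl⟩ _ ⟨k, rfl⟩
        exact ((show Commute (H.subtype x) (H.subtype y) from
          congrArg Subtype.val (hc x hx y hy)).zpow_left k).eq) (centralizer_le_normalizer _)))
  rw [← map_eq_bot_iff_of_injective _ H.subtype_injective, eq_bot_iff_forall]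
  intro x hx
  obtain ⟨a, b, ha, hb, e, ⟨k, hk⟩, hb'⟩ := H83.exists_p_parts (p := 2) x
  have a1 := H3.le_pCore_of_isSubnormal (h3 a (zpowers_le.2 hx ha)) (H83.isPGroup_zpowers hk)
    (mem_zpowers a)
  have b1 := H3.le_pPrimeCore_of_isSubnormal (p := 2) (h3 b (zpowers_le.2 hx hb))
    (by rwa [Nat.card_zpowers]) (mem_zpowers b)
  rw [h2, mem_bot] at a1
  rw [ho, mem_bot] at b1
  rw [e, a1, b1, one_mul]

theorem fstar_eq [Finite G] {L : Subgroup G} (hn : L.Normal) [IsSimpleGroup L]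
    (hc : C[L] = ⊥) : generalizedFittingSubgroup G = L := by
  have hL : IsComponent L := ⟨hn.isSubnormal, H52.isQuasisimple_of_isSimpleGroup fun hab => by
    obtain ⟨a, ha⟩ := exists_ne (1 : L)
    exact ha (Subtype.ext (hc.le (show (a : G) ∈ centralizer (L : Set G) from fun b hb =>
      congrArg Subtype.val (hab.is_comm.comm ⟨b, hb⟩ a))))⟩
  refine le_antisymm ?_ (H52.IsComponent.le_fstar hL)
  simpa [hc] using H52.IsComponent.fstar_le_sup_centralizer hL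

theorem s2978_of (hM : MainStmt.{u}) (hB : BAStmt.{u}) {G : Type u} [Group G] [Finite G]
    (_hK : Cfsg.IsKpGroup 2 G) (S : Sylow 2 G) (Q : Subgroup G) (hQS : Q ≤ (S : Subgroup G))
    (hQab : IsMulCommutative ↥Q) (hlarge : Cfsg.IsLarge Q) (hQb : Q = Cfsg.largeBullet 2 Q)
    (hnotuniq : ∃ R : Subgroup G, IsPGroup 2 ↥R ∧ R ≠ ⊥ ∧
      (S : Subgroup G) ≤ Subgroup.normalizer (R : Set G) ∧
      ¬ Subgroup.normalizer (R : Set G) ≤ Subgroup.normalizer (Q : Set G)) :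
    (∃ (F : Type) (_ : Field F) (_ : Fintype F) (_ : CharP F 2) (n : ℕ), 3 ≤ n ∧
      Nonempty (↥(Cfsg.generalizedFittingSubgroup G) ≃*
        Matrix.ProjectiveSpecialLinearGroup (Fin n) F)) ∨
    Cfsg.Spor.IsoM22 ↥(Cfsg.generalizedFittingSubgroup G) ∨
    Cfsg.Spor.IsoM23 ↥(Cfsg.generalizedFittingSubgroup G) ∨
    Cfsg.Spor.IsoM24 ↥(Cfsg.generalizedFittingSubgroup G) ∨
    Nonempty (↥(Cfsg.generalizedFittingSubgroup G) ≃* alternatingGroup (Fin 6)) ∨
    Nonempty (↥(Cfsg.generalizedFittingSubgroup G) ≃* alternatingGroup (Fin 9)) := by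
  have : Fact (Nat.Prime 2) := ⟨Nat.prime_two⟩
  obtain ⟨R, hR, R0, hSR, hn⟩ := hnotuniq
  obtain ⟨g, hgR, hg⟩ := SetLike.not_le_iff_exists.1 hn
  have hab : ∀ a ∈ Q, ∀ b ∈ Q, a * b = b * a := fun a ha b hb =>
    congrArg Subtype.val (hQab.is_comm.comm (⟨a, ha⟩ : Q) ⟨b, hb⟩)
  obtain ⟨A, hA⟩ : ∃ A : Subgroup G, ∀ x, x ∈ A ↔ x ∈ Q ∧ x * x = 1 :=
    ⟨{ carrier := {x | x ∈ Q ∧ x * x = 1}
       one_mem' := ⟨Q.one_mem, one_mul 1⟩
       mul_mem' := fun {a b} ha hb => ⟨Q.mul_mem ha.1 hb.1, by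
        rw [mul_assoc, ← mul_assoc b, ← hab a ha.1 b hb.1, mul_assoc, hb.2, mul_one, ha.2]⟩
       inv_mem' := fun {a} ha => ⟨Q.inv_mem ha.1, by rw [← mul_inv_rev, ha.2, inv_one]⟩ },
      fun _ => Iff.rfl⟩
  have c : Cx Q A := ⟨hlarge, hab, S.isPGroup'.to_le hQS,
    fun T h1 h2 h3 => (H83.le_pCoreOf h2 h3 h1).trans hQb.ge,
    fun e => hg (by rw [e]; exact le_normalizer_of_normal (mem_top g)), hA⟩
  have ti := c.ti_class
  have ba := hB _ ti
  set Ω : Set (Subgroup G) := {P | ∃ g : G, cj g A = P} with hΩ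
  have hAΩ : A ∈ Ω := ⟨1, H83.cj_one A⟩
  have ed : Ed Ω (cj g A) A := by
    have h1 : Q ≤ N[R] := hQS.trans hSR
    obtain ⟨z, hz, z1, z2⟩ := c.inv (U := R ⊓ C[Q]) (inf_le_right.trans hlarge.1)
      (H83.inf_centralizer_ne_bot hR c.two h1 R0)
    have h2 : R ≤ N[Q] := le_sup_right.trans
      (c.wc.le_normalizer (c.two.to_sup_of_normal_right' hR h1) le_sup_left)
    refine ⟨⟨g, rfl⟩, hAΩ, fun e => hg (c.normQ (H83.cj_eq_self_iff.1 e)), fun e => z2 ?_⟩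
    have : g * z * g⁻¹ ∈ ax (cj g A) A :=
      ⟨H83.conj_mem_cj z1, c.normA (h2 (H83.conj_mem le_rfl hgR hz.1))⟩
    rw [e, mem_bot] at this
    simpa using this
  have h4 : 4 ≤ Nat.card A := by
    obtain ⟨e1, e2, e3, -⟩ := ba.hq ed
    rw [H83.card_cj] at e1
    rw [← e1]
    exact Nat.mul_le_mul (e2.trans e3) e2
  have hH : ∀ P ∈ Ω, P ≤ sSup Ω := fun P hP => le_sSup hP
  have hN := normal_sSup ti
  obtain ⟨hs, out⟩ := hM _ (⟨ti_sub ti ba hH, ⟨_, A, hAΩ, rfl⟩, by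
      rintro _ ⟨_, ⟨k, rfl⟩, rfl⟩
      rwa [Nat.card_congr (subgroupOfEquivOfLe (hH _ ⟨k, rfl⟩)).toEquiv, H83.card_cj],
    gen_sub, ab_bot (c.two_bot hg) (c.odd_bot hg h4) hN⟩ :
      H0 ((fun P : Subgroup G => P.subgroupOf (sSup Ω)) '' Ω))
  rw [fstar_eq hN (c.normal_bot hg inferInstance
    ((H83.cent_anti (hH A hAΩ)).trans c.centA))]
  rcases out with ⟨h, -⟩ | ⟨F, _, _, n, _, h3, e⟩ | h | ⟨⟨e⟩, h⟩ | h | h | h | h
  · exact (h ⟨_, _, ed_sub hH ed⟩).elim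
  · exact .inl ⟨F, inferInstance, inferInstance, inferInstance, n, h3, e⟩
  · exact .inr (.inr (.inr (.inr (.inl h))))
  · exfalso
    have h5 := h _ ⟨A, hAΩ, rfl⟩
    rw [Nat.card_congr (subgroupOfEquivOfLe (hH A hAΩ)).toEquiv] at h5
    obtain ⟨z, -, z1, z2⟩ := c.inv le_rfl c.ne
    obtain ⟨τ, t1, t2⟩ := alt7 (e ⟨z, hH A hAΩ z1⟩) (by
      rw [← map_mul, ← map_one e]
      exact congrArg e (Subtype.ext ((hA z).1 z1).2))
    obtain ⟨y, rfl⟩ := e.surjective τ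
    rw [e.orderOf_eq, ← orderOf_coe] at t1
    rw [← map_mul, ← map_mul] at t2
    have t3 : (y : G) * z = z * y := congrArg Subtype.val (e.injective t2)
    have t4 := H83.eq_one_of_mem_pgroup c.two
      (c.centA (three_cent h5 z1 z2 (c.normA (c.cent (c.le z1) z2 t3)) t1 t3))
      (by rw [t1]; decide)
    rw [t4, orderOf_one] at t1
    omega
  · exact .inr (.inr (.inr (.inr (.inr h))))
  · exact .inr (.inl h)
  · exact .inr (.inr (.inl h))
  · exact .inr (.inr (.inr (.inl h)))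

end Cfsg.Agent.H45.TIR
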